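import Mathlib.GroupTheory.Exponent
import Mathlib.GroupTheory.SpecificGroups.Cyclic
import Mathlib.Data.Nat.Factors

set_option autoImplicit false

namespace Groth.Agent.Lib.Helper20

universe u

theorem cocyclic_core {A : Type u} [AddCommGroup A] (hA : AddMonoid.exponent A ≠ 0) (a : A) (ha : a ≠ 0)
    (h : ∀ B : AddSubgroup A, B ≠ ⊥ → a ∈ B) :
    ∃ x : A, (∀ y : A, y ∈ AddSubgroup.zmultiples x) ∧ ∃ p n : ℕ, p.Prime ∧ addOrderOf x = p ^ n := by
  classical
  have hex : AddMonoid.ExponentExists A := AddMonoid.exponent_ne_zero.mp hA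
  have hfin : ∀ y : A, IsOfFinAddOrder y := fun y => hex.isOfFinAddOrder
  have hmem : ∀ y : A, y ≠ 0 → a ∈ AddSubgroup.zmultiples y := by
    intro y hy
    apply h
    intro hb
    apply hy
    have : y ∈ AddSubgroup.zmultiples y := AddSubgroup.mem_zmultiples y
    rw [hb] at this
    exact (AddSubgroup.mem_bot).mp this
  set p := addOrderOf a with hp_def
  have hp1 : p ≠ 1 := by
    intro h1; apply ha; rw [← AddMonoid.addOrderOf_eq_one_iff]; exact h1
  have hp0 : 0 < p := (hfin a).addOrderOf_pos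
  -- every prime dividing an order is p
  have G1 : ∀ y : A, ∀ q : ℕ, q.Prime → q ∣ addOrderOf y → q = p := by
    intro y q hq hqy
    have hy0 : 0 < addOrderOf y := (hfin y).addOrderOf_pos
    set w := (addOrderOf y / q) • y with hw
    have hwq : addOrderOf w = q := by
      rw [hw, addOrderOf_nsmul_of_dvd]
      · exact Nat.div_div_self hqy hy0.ne'
      · exact (Nat.div_pos (Nat.le_of_dvd hy0 hqy) hq.pos).ne'
      · exact Nat.div_dvd_of_dvd hqy
    have hw0 : w ≠ 0 := by
      intro h0; rw [h0, addOrderOf_zero] at hwq; exact hq.one_lt.ne' hwq.symm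
    obtain ⟨k, hk⟩ := AddSubgroup.mem_zmultiples_iff.mp (hmem w hw0)
    have hqa : q • a = 0 := by
      rw [← hk, smul_comm, ← hwq, addOrderOf_nsmul_eq_zero, smul_zero]
    have hpq : p ∣ q := addOrderOf_dvd_of_nsmul_eq_zero hqa
    rcases (Nat.dvd_prime hq).mp hpq with h1 | h1
    · exact absurd h1 hp1
    · exact h1.symm
  have hpp : p.Prime := by
    have := G1 a p.minFac (Nat.minFac_prime hp1) (Nat.minFac_dvd p)
    rw [← this]; exact Nat.minFac_prime hp1
  obtain ⟨x, hx⟩ := AddMonoid.exists_addOrderOf_eq_exponent hex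
  have hx0 : 0 < addOrderOf x := (hfin x).addOrderOf_pos
  have hxpow : addOrderOf x = p ^ (addOrderOf x).primeFactorsList.length :=
    Nat.eq_prime_pow_of_unique_prime_dvd hx0.ne' (fun {d} hd hdx => G1 x d hd hdx)
  set n := (addOrderOf x).primeFactorsList.length with hn_def
  have hxne : x ≠ 0 := by
    intro h0
    have : AddMonoid.exponent A = 1 := by rw [← hx, h0, addOrderOf_zero]
    apply ha
    have h2 := AddMonoid.addOrder_dvd_exponent a
    rw [this, Nat.dvd_one, AddMonoid.addOrderOf_eq_one_iff] at h2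
    exact h2
  have haX : a ∈ AddSubgroup.zmultiples x := hmem x hxne
  have hn1 : 1 ≤ n := by
    by_contra hlt
    have : n = 0 := by omega
    rw [this, pow_zero, AddMonoid.addOrderOf_eq_one_iff] at hxpow
    exact hxne hxpow
  have hkill : ∀ y : A, p ^ n • y = 0 := by
    intro y
    rw [← hxpow, hx]
    exact AddMonoid.exponent_nsmul_eq_zero y
  refine ⟨x, ?_, p, n, hpp, hxpow⟩
  intro y
  induction hN : addOrderOf y using Nat.strong_induction_on generalizing y with
  | _ N ih =>
    by_cases hy : y = 0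
    · rw [hy]; exact zero_mem _
    have hy1 : addOrderOf y ≠ 1 := by rw [Ne, AddMonoid.addOrderOf_eq_one_iff]; exact hy
    have hy0 : 0 < addOrderOf y := (hfin y).addOrderOf_pos
    have hpy : p ∣ addOrderOf y := by
      have := G1 y (addOrderOf y).minFac (Nat.minFac_prime hy1) (Nat.minFac_dvd _)
      rw [← this]; exact Nat.minFac_dvd _
    have hlt : addOrderOf (p • y) < N := by
      rw [addOrderOf_nsmul_of_dvd hpp.ne_zero hpy, ← hN]
      exact Nat.div_lt_self hy0 hpp.one_lt
    obtain ⟨j, hj⟩ := AddSubgroup.mem_zmultiples_iff.mp (ih _ hlt (p • y) rfl)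
    -- p ∣ j
    have hpj : (p : ℤ) ∣ j := by
      have h1 : (p ^ (n - 1) : ℕ) • (j • x) = 0 := by
        rw [hj, ← mul_nsmul, ← pow_succ', Nat.sub_add_cancel hn1, hkill]
      rw [← natCast_zsmul, smul_smul] at h1
      have h2 := addOrderOf_dvd_iff_zsmul_eq_zero.mpr h1
      rw [hxpow] at h2
      have h3 : ((p : ℤ) ^ (n - 1)) * p ∣ ((p ^ (n - 1) : ℕ) : ℤ) * j := by
        rw [← pow_succ, Nat.sub_add_cancel hn1]; exact_mod_cast h2
      push_cast at h3
      exact (mul_dvd_mul_iff_left (pow_ne_zero _ (by exact_mod_cast hpp.ne_zero))).mp h3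
    obtain ⟨j', rfl⟩ := hpj
    set z := y - j' • x with hz
    have hpz : p • z = 0 := by
      rw [hz, smul_sub, ← hj, ← natCast_zsmul, smul_smul, sub_self]
    have hyz : y = z + j' • x := (sub_add_cancel y (j' • x)).symm
    rw [hyz]
    refine add_mem ?_ (AddSubgroup.zsmul_mem _ (AddSubgroup.mem_zmultiples x) j')
    · by_cases hz0 : z = 0
      · rw [hz0]; exact zero_mem _
      obtain ⟨k, hk⟩ := AddSubgroup.mem_zmultiples_iff.mp (hmem z hz0)
      have hkp : ¬ (p : ℤ) ∣ k := by
        rintro ⟨k', rfl⟩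
        apply ha
        rw [← hk, mul_comm, ← smul_smul, natCast_zsmul, hpz, smul_zero]
      have hg : Int.gcd k p = 1 := by
        rw [Int.gcd_comm]
        have : Nat.Coprime p k.natAbs := (Nat.Prime.coprime_iff_not_dvd hpp).mpr
          (fun hd => hkp (Int.natCast_dvd.mpr hd))
        simpa [Int.gcd] using this
      have hb := Int.gcd_eq_gcd_ab k p
      rw [hg] at hb
      have hzz : z = (k.gcdA p) • a := by
        calc z = (1 : ℤ) • z := (one_smul ℤ z).symm
          _ = (k * k.gcdA p + p * k.gcdB p) • z := by rw [← hb]; rfl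
          _ = (k.gcdA p) • (k • z) + (k.gcdB p) • ((p : ℤ) • z) := by
              rw [add_smul, mul_comm k, mul_comm (p : ℤ), ← smul_smul, ← smul_smul]
          _ = (k.gcdA p) • a := by rw [hk, natCast_zsmul, hpz, smul_zero, add_zero]
      rw [hzz]
      exact AddSubgroup.zsmul_mem _ haX _

end Groth.Agent.Lib.Helper20
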