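import Groth.Prelude.Def_W4c1chowmix47Eta
import Mathlib.RingTheory.Valuation.ValuationRing
import Mathlib.RingTheory.IntegralClosure.IntegrallyClosed
import Mathlib.Algebra.CharP.Reduced
import Mathlib.Algebra.CharP.Algebra
import Mathlib.RingTheory.Bezout
import Mathlib.Algebra.GCDMonoid.IntegrallyClosed

set_option autoImplicit false

namespace Groth.Agent.Lib.Helper20

universe u

open EtaPt

variable (η : EtaPt.FieldEndo.{u})

theorem eta_natural_apply {K L : Type u} [Field K] [Field L] (f : K →+* L) (z : K) :
    η.map f (η.eta K z) = η.eta L (f z) :=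
  RingHom.congr_fun (η.eta_natural f) z

theorem map_bijective_of_equiv {K L : Type u} [Field K] [Field L] (φ : K ≃+* L) :
    Function.Bijective (η.map (φ : K →+* L)) := by
  have h1 : (η.map (φ : K →+* L)).comp (η.map (φ.symm : L →+* K)) = RingHom.id _ := by
    rw [← η.map_comp, RingEquiv.comp_symm, η.map_id]
  have h2 : (η.map (φ.symm : L →+* K)).comp (η.map (φ : K →+* L)) = RingHom.id _ := by
    rw [← η.map_comp, RingEquiv.symm_comp, η.map_id]
  refine ⟨fun a b hab => ?_, fun b => ⟨η.map (φ.symm : L →+* K) b, RingHom.congr_fun h1 b⟩⟩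
  have := congrArg (η.map (φ.symm : L →+* K)) hab
  rwa [← RingHom.comp_apply, h2, ← RingHom.comp_apply, h2] at this

/-- bijectivity of `η.eta` transports along field isomorphisms -/
theorem eta_bijective_of_equiv {K L : Type u} [Field K] [Field L] (φ : K ≃+* L)
    (h : Function.Bijective (η.eta K)) : Function.Bijective (η.eta L) := by
  have e : η.eta L = (η.map (φ : K →+* L)).comp ((η.eta K).comp (φ.symm : L →+* K)) := by
    rw [← RingHom.comp_assoc, η.eta_natural, RingHom.comp_assoc, RingEquiv.comp_symm,
      RingHom.comp_id]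
  rw [e]
  exact (map_bijective_of_equiv η φ).comp (h.comp φ.symm.bijective)

theorem eta_bijective_bot (R : Type u) [CommRing R] [IsDomain R] (hR : η.InV R) :
    Function.Bijective (η.eta (⊥ : Ideal R).ResidueField) :=
  eta_bijective_of_equiv η
    (IsLocalization.algEquiv (nonZeroDivisors R) (FractionRing R) (⊥ : Ideal R).ResidueField).toRingEquiv hR

end Groth.Agent.Lib.Helper20
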