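import Groth.Agent.Lib.Helper20.EtaPt9

set_option autoImplicit false

namespace Groth.Agent.Lib.Helper20

universe u

open EtaPt

variable (η : EtaPt.FieldEndo.{u})

theorem Nmap_injective_of_comap_surjective {A B : Type u} [CommRing A] [CommRing B] (f : A →+* B)
    (hs : Function.Surjective (PrimeSpectrum.comap f)) : Function.Injective (η.Nmap f) := by
  intro x x' h
  funext P
  obtain ⟨Q, rfl⟩ := hs P
  have h1 := congrFun h Q
  rw [Nmap_apply, Nmap_apply] at h1
  exact (η.map _).injective h1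

theorem Nmap_mem_M {A B : Type u} [CommRing A] [CommRing B] (f : A →+* B) {x : η.N A}
    (hx : x ∈ η.M A) : η.Nmap f x ∈ η.M B := by
  intro R _ _ _ hR g
  rw [← Nmap_comp]
  exact hx R hR (g.comp f)

theorem mem_rel_iff {A B : Type u} [CommRing A] [CommRing B] (f : A →+* B) (b : B) :
    b ∈ η.rel f ↔ ∃ x ∈ η.M A, η.Nmap f x = η.t B b := Iff.rfl

theorem qRel_bijective_iff {A B : Type u} [CommRing A] [CommRing B] (f : A →+* B) :
    Function.Bijective (η.qRel f) ↔ Function.Injective f ∧ ∀ b ∈ η.rel f, ∃ a, f a = b := by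
  constructor
  · rintro ⟨h1, h2⟩
    refine ⟨fun a a' h => h1 (Subtype.ext h), fun b hb => ?_⟩
    obtain ⟨a, ha⟩ := h2 ⟨b, hb⟩
    exact ⟨a, congrArg Subtype.val ha⟩
  · rintro ⟨h1, h2⟩
    refine ⟨fun a a' h => h1 (congrArg Subtype.val h), fun b => ?_⟩
    obtain ⟨a, ha⟩ := h2 b.1 b.2
    exact ⟨a, Subtype.ext ha⟩

end Groth.Agent.Lib.Helper20
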