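import Groth.Agent.Lib.Helper20.EtaPt3

set_option autoImplicit false

namespace Groth.Agent.Lib.Helper20

universe u

open EtaPt

variable (η : EtaPt.FieldEndo.{u})

/-- `η` at `F K` coincides with `F(η_K)`. -/
theorem eta_obj_eq_map_eta (K : Type u) [Field K] :
    η.eta (η.obj K) = η.map (η.eta K) := by
  ext y
  obtain ⟨n, c, hc⟩ := η.exists_pow_mem_range_eta K y
  apply pow_expChar_pow_injective_of_field ((η.eta (η.obj K)).comp (η.eta K)) n
  simp only
  rw [← map_pow, ← map_pow, ← hc, eta_natural_apply]

theorem eta_obj_bijective (K : Type u) [Field K] : Function.Bijective (η.eta (η.obj K)) := by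
  rw [eta_obj_eq_map_eta]
  exact η.bijective_map_eta K

theorem inV_of_valuationSubring_obj (K : Type u) [Field K] (V : ValuationSubring (η.obj K)) :
    η.InV V :=
  eta_bijective_of_equiv η
    (IsLocalization.algEquiv (nonZeroDivisors V) (η.obj K) (FractionRing V)).toRingEquiv
    (eta_obj_bijective η K)

/-- a valuation subring of a field `L` receiving `A` injectively, dominating `A_P` -/
theorem exists_valuationSubring_dominating_field (A : Type u) [CommRing A] [IsDomain A]
    (P : PrimeSpectrum A) (L : Type u) [Field L] (ι : A →+* L) (hι : Function.Injective ι) :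
    ∃ (V : ValuationSubring L) (g : A →+* V), Function.Injective g ∧
      PrimeSpectrum.comap g (IsLocalRing.closedPoint V) = P ∧ ∀ a : A, (g a : L) = ι a := by
  classical
  have hunit : ∀ s : P.asIdeal.primeCompl, IsUnit (ι s) := by
    intro s
    apply IsUnit.mk0
    intro h0
    have : (s : A) = 0 := hι (by rw [h0, map_zero])
    apply s.2
    rw [this]
    exact P.asIdeal.zero_mem
  let f : Localization.AtPrime P.asIdeal →+* L := IsLocalization.lift hunit
  obtain ⟨V, hV, hloc⟩ := IsLocalRing.exists_factor_valuationRing f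
  let g₀ : Localization.AtPrime P.asIdeal →+* V := f.codRestrict V.toSubring hV
  let g : A →+* V := g₀.comp (algebraMap A (Localization.AtPrime P.asIdeal))
  have hg : ∀ a : A, (g a : L) = ι a := by
    intro a
    show f (algebraMap A _ a) = _
    exact IsLocalization.lift_eq hunit a
  refine ⟨V, g, ?_, ?_, hg⟩
  · intro a b hab
    apply hι
    rw [← hg, ← hg, hab]
  · have h1 : PrimeSpectrum.comap g (IsLocalRing.closedPoint V) =
        PrimeSpectrum.comap (algebraMap A (Localization.AtPrime P.asIdeal))
          (PrimeSpectrum.comap g₀ (IsLocalRing.closedPoint V)) := rfl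
    rw [h1, IsLocalRing.comap_closedPoint]
    ext1
    exact IsLocalization.AtPrime.under_maximalIdeal (Localization.AtPrime P.asIdeal) P.asIdeal

/-- evaluation at the generic point is injective on `M η A` for any domain `A` -/
theorem injOn_gen (A : Type u) [CommRing A] [IsDomain A] :
    Set.InjOn (fun x : η.N A => x (gen A)) (η.M A) := by
  intro x hx x' hx' hxx'
  simp only at hxx'
  funext P
  let ι : A →+* η.obj (⊥ : Ideal A).ResidueField :=
    (η.eta _).comp (algebraMap A (⊥ : Ideal A).ResidueField)
  have hι : Function.Injective ι := fun a b h =>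
    algebraMap_residueField_bot_injective A ((η.eta (⊥ : Ideal A).ResidueField).injective h)
  obtain ⟨V, g, hginj, hgP, -⟩ := exists_valuationSubring_dominating_field A P _ ι hι
  have hV := inV_of_valuationSubring_obj η _ V
  obtain ⟨r, hr⟩ := hx V hV g
  obtain ⟨r', hr'⟩ := hx' V hV g
  have hgen := comap_gen_of_injective g hginj
  have e1 : x (PrimeSpectrum.comap g (gen V)) = x' (PrimeSpectrum.comap g (gen V)) := by
    rw [hgen]; exact hxx'
  have e2 : η.Nmap g x (gen V) = η.Nmap g x' (gen V) := by
    rw [Nmap_apply, Nmap_apply, e1]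
  rw [← hr, ← hr'] at e2
  have hrr : r = r' := by
    rw [t_apply, t_apply] at e2
    exact algebraMap_residueField_bot_injective V ((η.eta _).injective e2)
  have e3 : η.Nmap g x = η.Nmap g x' := by rw [← hr, ← hr', hrr]
  have e4 := congrFun e3 (IsLocalRing.closedPoint V)
  rw [Nmap_apply, Nmap_apply] at e4
  have e5 := (η.map _).injective e4
  rw [hgP] at e5
  exact e5

/-- the generic component of an element of `M η A` is integral over `A` -/
theorem gen_isIntegralElem (A : Type u) [CommRing A] [IsDomain A] (x : η.N A) (hx : x ∈ η.M A) :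
    ((η.eta (⊥ : Ideal A).ResidueField).comp
      (algebraMap A (⊥ : Ideal A).ResidueField)).IsIntegralElem (x (gen A)) := by
  classical
  set K := (⊥ : Ideal A).ResidueField
  set ρ : A →+* η.obj K := (η.eta K).comp (algebraMap A K) with hρ
  have hρinj : Function.Injective ρ := fun a b h =>
    algebraMap_residueField_bot_injective A ((η.eta K).injective h)
  set y := x (gen A) with hy
  have key : y ∈ (integralClosure (Subring.closure (Set.range ρ)) (η.obj K)).toSubring := by
    rw [← iInf_valuationSubring_superset, Subring.mem_iInf]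
    rintro ⟨V, hV⟩
    let g : A →+* V := ρ.codRestrict V.toSubring (fun a => hV ⟨a, rfl⟩)
    have hgval : ∀ a, (g a : η.obj K) = ρ a := fun a => rfl
    have hginj : Function.Injective g := fun a b h => hρinj (by rw [← hgval, ← hgval, h])
    have hVinv := inV_of_valuationSubring_obj η K V
    obtain ⟨r, hr⟩ := hx V hVinv g
    have hgen := comap_gen_of_injective g hginj
    have e1 := Nmap_apply_of_eq η g x (gen V) (gen A) hgen
    rw [← hr, t_apply] at e1
    let ψ := IsLocalization.algEquiv (nonZeroDivisors V) (⊥ : Ideal V).ResidueField (η.obj K)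
    let φ := Ideal.ResidueField.map (gen A).asIdeal (gen V).asIdeal g (by rw [← hgen]; rfl)
    have hψφ : (ψ.toRingEquiv.toRingHom).comp φ = η.eta K := by
      apply Ideal.ResidueField.ringHom_ext
      ext a
      simp only [RingHom.comp_apply]
      have h1 : φ (algebraMap A (gen A).asIdeal.ResidueField a) =
          algebraMap V (gen V).asIdeal.ResidueField (g a) :=
        Ideal.ResidueField.map_algebraMap _ _ _ _ a
      rw [h1]
      show ψ (algebraMap V _ (g a)) = _
      rw [AlgEquiv.commutes]
      rfl
    have e2 := congrArg (η.map ψ.toRingEquiv.toRingHom) e1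
    rw [eta_natural_apply] at e2
    have e3 : η.map ψ.toRingEquiv.toRingHom (η.map φ (x (gen A))) = η.eta (η.obj K) y := by
      rw [← RingHom.comp_apply, ← η.map_comp, hψφ, ← eta_obj_eq_map_eta]
    rw [e3] at e2
    have e4 := (η.eta (η.obj K)).injective e2
    have e5 : (r : η.obj K) = y := by
      rw [← e4]
      show _ = ψ (algebraMap V _ r)
      rw [AlgEquiv.commutes]
      rfl
    show y ∈ V
    rw [← e5]
    exact r.2
  rw [Subalgebra.mem_toSubring, mem_integralClosure_iff] at key
  obtain ⟨P, hPm, hP⟩ := key
  let f : A →+* Subring.closure (Set.range ρ) :=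
    ρ.codRestrict _ (fun a => Subring.subset_closure ⟨a, rfl⟩)
  have hfs : Function.Surjective f := by
    rintro ⟨z, hz⟩
    have hz' : z ∈ ρ.range := by
      have : Subring.closure (Set.range ρ) ≤ ρ.range := by
        rw [Subring.closure_le]
        rintro _ ⟨a, rfl⟩
        exact ⟨a, rfl⟩
      exact this hz
    obtain ⟨a, rfl⟩ := hz'
    exact ⟨a, rfl⟩
  obtain ⟨Q, hQ, -, hQm⟩ := Polynomial.lifts_and_degree_eq_and_monic
    (Polynomial.map_surjective f hfs P) hPm
  refine ⟨Q, hQm, ?_⟩
  rw [← hP, ← hQ, Polynomial.eval₂_map]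
  rfl

end Groth.Agent.Lib.Helper20
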