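import Groth.Agent.Lib.Helper20.EtaPt6
import Groth.Agent.S13802

set_option autoImplicit false

namespace Groth.Agent.Lib.Helper20

universe u

open EtaPt

variable (η : EtaPt.FieldEndo.{u})

/-- every prime of `M η A` is the kernel of evaluation at its image -/
theorem eq_kerPt (A : Type u) [CommRing A] (hA : (minimalPrimes A).Finite)
    (Q : PrimeSpectrum (η.M A)) : Q = kerPt η A (PrimeSpectrum.comap (η.q A) Q) := by
  classical
  have hfin : {P : PrimeSpectrum A | P.asIdeal ∈ minimalPrimes A}.Finite :=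
    hA.preimage (fun a _ b _ h => PrimeSpectrum.ext h)
  have hinf : hfin.toFinset.inf (fun p => RingHom.ker (evM η A p)) ≤ Q.asIdeal := by
    intro x hx
    rw [Submodule.mem_finsetInf] at hx
    have h0 : (x : η.N A) = 0 :=
      eq_zero_of_forall_minimal η A x x.2
        (fun p hp => hx p ((Set.Finite.mem_toFinset hfin).mpr hp))
    have h0' : x = 0 := Subtype.ext h0
    rw [h0']
    exact Q.asIdeal.zero_mem
  obtain ⟨p, -, hpQ⟩ := (Q.2.inf_le').mp hinf
  have hle : (kerPt η A (PrimeSpectrum.comap (η.q A) Q)).asIdeal ≤ Q.asIdeal := fun z hz =>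
    mem_of_ker_evM_le η A Q p hpQ z hz
  let _ : Algebra A (η.M A) := (η.q A).toAlgebra
  have : Algebra.IsIntegral A (η.M A) := ⟨Groth.Agent.S13802.result η A hA⟩
  by_contra hne
  have hlt : (kerPt η A (PrimeSpectrum.comap (η.q A) Q)).asIdeal < Q.asIdeal :=
    lt_of_le_of_ne hle (fun h => hne (PrimeSpectrum.ext h).symm)
  have h3 := Ideal.IsIntegral.comap_lt_comap (R := A) hlt
  have h1 := comap_kerPt η A (PrimeSpectrum.comap (η.q A) Q)
  have h2 : Ideal.comap (algebraMap A (η.M A))
      (kerPt η A (PrimeSpectrum.comap (η.q A) Q)).asIdeal =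
      Ideal.comap (algebraMap A (η.M A)) Q.asIdeal := congrArg PrimeSpectrum.asIdeal h1
  exact (ne_of_lt h3) h2

/-- every map from `A` to a valuation ring in `V_η` extends along `q_A` -/
theorem exists_extend (A : Type u) [CommRing A] (R : Type u) [CommRing R] [IsDomain R]
    [ValuationRing R] (hR : η.InV R) (g : A →+* R) :
    ∃ h : η.M A →+* R, h.comp (η.q A) = g := by
  classical
  have hex : ∀ x : η.M A, ∃ r : R, η.t R r = η.Nmap g x := fun x => x.2 R hR g
  choose hfun hhfun using hex
  have hinj := t_injective η R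
  let h : η.M A →+* R :=
    { toFun := hfun
      map_one' := hinj (by rw [hhfun, Subring.coe_one, map_one, map_one])
      map_mul' := fun x y => hinj (by
        rw [hhfun, Subring.coe_mul, map_mul, map_mul, hhfun, hhfun])
      map_zero' := hinj (by rw [hhfun, Subring.coe_zero, map_zero, map_zero])
      map_add' := fun x y => hinj (by
        rw [hhfun, Subring.coe_add, map_add, map_add, hhfun, hhfun]) }
  refine ⟨h, ?_⟩
  ext a
  apply hinj
  show η.t R (hfun (η.q A a)) = η.t R (g a)
  rw [hhfun]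
  exact η.Nmap_t_apply g a

/-- `N η (q_A)` agrees with `t` on `M η A` -/
theorem Nmap_q_eq_t (A : Type u) [CommRing A] (hA : (minimalPrimes A).Finite) (x : η.M A) :
    η.Nmap (η.q A) (x : η.N A) = η.t (η.M A) x := by
  funext Q
  rw [Nmap_apply, t_apply]
  have hQ : Q.asIdeal = RingHom.ker (evM η A (PrimeSpectrum.comap (η.q A) Q)) :=
    congrArg PrimeSpectrum.asIdeal (eq_kerPt η A hA Q)
  have hf₁ : Q.asIdeal ≤ RingHom.ker (evM η A (PrimeSpectrum.comap (η.q A) Q)) := hQ.le
  have hf₂ : Q.asIdeal.primeCompl ≤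
      (IsUnit.submonoid _).comap (evM η A (PrimeSpectrum.comap (η.q A) Q)) := by
    intro y hy
    show IsUnit _
    apply IsUnit.mk0
    intro h0
    apply hy
    rw [hQ]
    exact h0
  let ψ := Ideal.ResidueField.lift Q.asIdeal _ hf₁ hf₂
  have hψφ : ψ.comp (Ideal.ResidueField.map (PrimeSpectrum.comap (η.q A) Q).asIdeal Q.asIdeal
      (η.q A) rfl) = η.eta _ := by
    apply Ideal.ResidueField.ringHom_ext
    ext a
    simp only [RingHom.comp_apply]
    have h1 : Ideal.ResidueField.map (PrimeSpectrum.comap (η.q A) Q).asIdeal Q.asIdeal (η.q A) rfl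
        (algebraMap A _ a) = algebraMap (η.M A) Q.asIdeal.ResidueField (η.q A a) :=
      Ideal.ResidueField.map_algebraMap _ _ _ _ a
    exact (congrArg ψ h1).trans
      (Ideal.ResidueField.lift_algebraMap Q.asIdeal _ hf₁ hf₂ (η.q A a))
  have hψx : ψ (algebraMap (η.M A) Q.asIdeal.ResidueField x) =
      (x : η.N A) (PrimeSpectrum.comap (η.q A) Q) :=
    Ideal.ResidueField.lift_algebraMap Q.asIdeal _ hf₁ hf₂ x
  have l1 : η.map ψ (η.map (Ideal.ResidueField.map (PrimeSpectrum.comap (η.q A) Q).asIdeal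
      Q.asIdeal (η.q A) rfl) ((x : η.N A) (PrimeSpectrum.comap (η.q A) Q))) =
      η.eta _ ((x : η.N A) (PrimeSpectrum.comap (η.q A) Q)) := by
    rw [← RingHom.comp_apply, ← η.map_comp, hψφ, ← eta_obj_eq_map_eta]
  have l2 : η.map ψ (η.eta _ (algebraMap (η.M A) Q.asIdeal.ResidueField x)) =
      η.eta _ ((x : η.N A) (PrimeSpectrum.comap (η.q A) Q)) := by
    rw [eta_natural_apply, hψx]
  exact (η.map ψ).injective (l1.trans l2.symm)

end Groth.Agent.Lib.Helper20
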