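import Groth.Agent.Lib.Helper20.EtaPt4

set_option autoImplicit false

namespace Groth.Agent.Lib.Helper20

universe u

open EtaPt

variable (η : EtaPt.FieldEndo.{u})

/-- evaluation of `M η A` at a prime of `A` -/
noncomputable def evM (A : Type u) [CommRing A] (P : PrimeSpectrum A) :
    η.M A →+* η.obj P.asIdeal.ResidueField :=
  (Pi.evalRingHom (fun p : PrimeSpectrum A => η.obj p.asIdeal.ResidueField) P).comp
    (η.M A).subtype

theorem evM_apply (A : Type u) [CommRing A] (P : PrimeSpectrum A) (x : η.M A) :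
    evM η A P x = (x : η.N A) P := rfl

theorem evM_q (A : Type u) [CommRing A] (P : PrimeSpectrum A) (a : A) :
    evM η A P (η.q A a) = η.eta _ (algebraMap A P.asIdeal.ResidueField a) := rfl

/-- the kernel of evaluation at `P`, as a point of `Spec (M η A)` -/
noncomputable def kerPt (A : Type u) [CommRing A] (P : PrimeSpectrum A) :
    PrimeSpectrum (η.M A) :=
  ⟨RingHom.ker (evM η A P), RingHom.ker_isPrime _⟩

theorem comap_kerPt (A : Type u) [CommRing A] (P : PrimeSpectrum A) :
    PrimeSpectrum.comap (η.q A) (kerPt η A P) = P := by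
  ext a
  simp only [kerPt, PrimeSpectrum.comap_asIdeal, Ideal.mem_comap, RingHom.mem_ker, evM_q]
  rw [map_eq_zero]
  exact Ideal.algebraMap_residueField_eq_zero

/-- an element of `M η A` vanishing at all minimal primes vanishes -/
theorem eq_zero_of_forall_minimal (A : Type u) [CommRing A] (x : η.N A) (hx : x ∈ η.M A)
    (h : ∀ p : PrimeSpectrum A, p.asIdeal ∈ minimalPrimes A → x p = 0) : x = 0 := by
  classical
  funext P'
  obtain ⟨p, hp, hpP⟩ := Ideal.exists_minimalPrimes_le (bot_le : ⊥ ≤ P'.asIdeal)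
  have hpp : p.IsPrime := Ideal.IsMinimalPrime.isPrime hp
  let π : A →+* A ⧸ p := Ideal.Quotient.mk p
  have hπs : Function.Surjective π := Ideal.Quotient.mk_surjective
  have hxD : η.Nmap π x ∈ η.M (A ⧸ p) := by
    intro R _ _ _ hR g
    rw [← Nmap_comp]
    exact hx R hR (g.comp π)
  have hgen : PrimeSpectrum.comap π (gen (A ⧸ p)) = ⟨p, hpp⟩ := by
    ext a
    simp only [gen, PrimeSpectrum.comap_asIdeal, Ideal.mem_comap, Ideal.mem_bot]
    exact Ideal.Quotient.eq_zero_iff_mem
  have h0 : η.Nmap π x = 0 := by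
    apply injOn_gen η (A ⧸ p) hxD (η.M (A ⧸ p)).zero_mem
    show η.Nmap π x (gen (A ⧸ p)) = 0
    rw [Nmap_apply_of_eq η π x (gen (A ⧸ p)) ⟨p, hpp⟩ hgen, h ⟨p, hpp⟩ hp, map_zero]
  have hPr : P' ∈ Set.range (PrimeSpectrum.comap π) := by
    rw [range_comap_of_surjective _ π hπs, PrimeSpectrum.mem_zeroLocus]
    intro a ha
    have : a ∈ p := by
      have h2 : a ∈ RingHom.ker π := ha
      rwa [Ideal.mk_ker] at h2
    exact hpP this
  obtain ⟨P'', rfl⟩ := hPr
  have h2 := congrFun h0 P''
  rw [Nmap_apply] at h2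
  exact (map_eq_zero_iff _ (η.map _).injective).mp h2

/-- core claim: if the kernel of evaluation at `p` lies in `Q`, then every element of `M η A`
vanishing at the image `P` of `Q` lies in `Q` -/
theorem mem_of_ker_evM_le (A : Type u) [CommRing A] (Q : PrimeSpectrum (η.M A))
    (p : PrimeSpectrum A) (hpQ : RingHom.ker (evM η A p) ≤ Q.asIdeal) (z : η.M A)
    (hz : (z : η.N A) (PrimeSpectrum.comap (η.q A) Q) = 0) : z ∈ Q.asIdeal := by
  classical
  let L := η.obj p.asIdeal.ResidueField
  let e := evM η A p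
  let S : Subring L := e.range
  let e' : η.M A →+* S := e.rangeRestrict
  have he' : Function.Surjective e' := e.rangeRestrict_surjective
  have hker : RingHom.ker e' = RingHom.ker e := RingHom.ker_rangeRestrict e
  have : Q.asIdeal.IsPrime := Q.2
  have hQ'p : (Q.asIdeal.map e').IsPrime :=
    Ideal.map_isPrime_of_surjective he' (by rw [hker]; exact hpQ)
  let Q' : PrimeSpectrum S := ⟨Q.asIdeal.map e', hQ'p⟩
  have hQ'c : Q'.asIdeal.comap e' = Q.asIdeal := by
    show (Q.asIdeal.map e').comap e' = Q.asIdeal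
    rw [Ideal.comap_map_of_surjective _ he', ← RingHom.ker_eq_comap_bot, hker]
    exact sup_eq_left.mpr hpQ
  obtain ⟨V, gS, -, hgSP, hgSval⟩ :=
    exists_valuationSubring_dominating_field S Q' L S.subtype Subtype.val_injective
  have hV := inV_of_valuationSubring_obj η _ V
  let g : A →+* V := (gS.comp e').comp (η.q A)
  obtain ⟨v, hv⟩ := z.2 V hV g
  have hgval : ∀ a : A, (g a : L) = η.eta _ (algebraMap A p.asIdeal.ResidueField a) :=
    fun a => hgSval _
  have hgen : PrimeSpectrum.comap g (gen V) = p := by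
    ext a
    simp only [PrimeSpectrum.comap_asIdeal, Ideal.mem_comap, gen, Ideal.mem_bot]
    constructor
    · intro h
      have h1 : (g a : L) = 0 := by rw [h]; rfl
      rw [hgval] at h1
      have h2 := (map_eq_zero _).mp h1
      exact Ideal.algebraMap_residueField_eq_zero.mp h2
    · intro h
      apply Subtype.ext
      rw [hgval, Ideal.algebraMap_residueField_eq_zero.mpr h, map_zero]
      rfl
  have e1 := Nmap_apply_of_eq η g z (gen V) p hgen
  rw [← hv, t_apply] at e1
  let ψ := IsLocalization.algEquiv (nonZeroDivisors V) (⊥ : Ideal V).ResidueField L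
  let φ := Ideal.ResidueField.map p.asIdeal (gen V).asIdeal g
    (congrArg PrimeSpectrum.asIdeal hgen).symm
  have hψφ : (ψ.toRingEquiv.toRingHom).comp φ = η.eta p.asIdeal.ResidueField := by
    apply Ideal.ResidueField.ringHom_ext
    ext a
    simp only [RingHom.comp_apply]
    have h1 : φ (algebraMap A p.asIdeal.ResidueField a) =
        algebraMap V (gen V).asIdeal.ResidueField (g a) :=
      Ideal.ResidueField.map_algebraMap _ _ _ _ a
    rw [h1]
    show ψ (algebraMap V _ (g a)) = _
    rw [AlgEquiv.commutes]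
    exact hgval a
  have e2 := congrArg (η.map ψ.toRingEquiv.toRingHom) e1
  rw [eta_natural_apply] at e2
  have e3 : η.map ψ.toRingEquiv.toRingHom (η.map φ ((z : η.N A) p)) =
      η.eta L ((z : η.N A) p) := by
    rw [← RingHom.comp_apply, ← η.map_comp, hψφ, ← eta_obj_eq_map_eta]
  rw [e3] at e2
  have e4 := (η.eta L).injective e2
  have e5 : (v : L) = (z : η.N A) p := by
    rw [← e4]
    show _ = ψ (algebraMap V _ v)
    rw [AlgEquiv.commutes]
    rfl
  have hv' : v = gS (e' z) := Subtype.ext (by rw [hgSval]; exact e5)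
  have hclosed : PrimeSpectrum.comap g (IsLocalRing.closedPoint V) =
      PrimeSpectrum.comap (η.q A) Q := by
    show PrimeSpectrum.comap (η.q A)
      (PrimeSpectrum.comap e' (PrimeSpectrum.comap gS (IsLocalRing.closedPoint V))) = _
    rw [hgSP]
    congr 1
    ext1
    exact hQ'c
  have e6 := Nmap_apply_of_eq η g z (IsLocalRing.closedPoint V) _ hclosed
  rw [hz, map_zero, ← hv, t_apply] at e6
  have e7 := (map_eq_zero _).mp e6
  rw [Ideal.algebraMap_residueField_eq_zero, hv'] at e7
  have e8 : e' z ∈ (PrimeSpectrum.comap gS (IsLocalRing.closedPoint V)).asIdeal := e7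
  rw [hgSP] at e8
  rw [← hQ'c]
  exact e8

end Groth.Agent.Lib.Helper20
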