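import Groth.Agent.Lib.Helper20.EtaPt10
import Groth.Agent.Lib.Helper20.EtaPt7
import Groth.Agent.S13803

set_option autoImplicit false

namespace Groth.Agent.Lib.Helper20

universe u

open EtaPt

variable (η : EtaPt.FieldEndo.{u})

theorem isNilpotent_of_t_eq_zero (B : Type u) [CommRing B] (b : B) (h : η.t B b = 0) :
    IsNilpotent b := by
  rw [nilpotent_iff_mem_prime]
  intro J hJ
  have h1 := congrFun h ⟨J, hJ⟩
  rw [t_apply] at h1
  exact Ideal.algebraMap_residueField_eq_zero.mp ((map_eq_zero _).mp h1)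

/-- elements of `rel f` are integral over `A` -/
theorem isIntegralElem_of_mem_rel {A B : Type u} [CommRing A] [CommRing B]
    (hA : (minimalPrimes A).Finite) (f : A →+* B) (b : B) (hb : b ∈ η.rel f) :
    f.IsIntegralElem b := by
  obtain ⟨x, hxM, hx⟩ := hb
  obtain ⟨P, hPm, hP⟩ := Groth.Agent.S13802.result η A hA ⟨x, hxM⟩
  have h1 : Polynomial.eval₂ (η.t A) x P = 0 := by
    have := congrArg (η.M A).subtype hP
    rw [Polynomial.hom_eval₂, map_zero] at this
    exact this
  have h2 : η.t B (Polynomial.eval₂ f b P) = 0 := by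
    have := congrArg (η.Nmap f) h1
    rw [Polynomial.hom_eval₂, map_zero, hx] at this
    rw [Polynomial.hom_eval₂]
    have e : (η.Nmap f).comp (η.t A) = (η.t B).comp f :=
      RingHom.ext (fun a => η.Nmap_t_apply f a)
    rw [← e]
    exact this
  obtain ⟨n, hn⟩ := isNilpotent_of_t_eq_zero η B _ h2
  exact ⟨P ^ n, hPm.pow n, by rw [Polynomial.eval₂_pow, hn]⟩

theorem qRel_isIntegral {A B : Type u} [CommRing A] [CommRing B]
    (hA : (minimalPrimes A).Finite) (f : A →+* B) : (η.qRel f).IsIntegral := by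
  rintro ⟨b, hb⟩
  obtain ⟨P, hPm, hP⟩ := isIntegralElem_of_mem_rel η hA f b hb
  refine ⟨P, hPm, Subtype.ext ?_⟩
  show (η.rel f).subtype (Polynomial.eval₂ (η.qRel f) ⟨b, hb⟩ P) = 0
  rw [Polynomial.hom_eval₂]
  exact hP

/-- the map `rel f → M η A` -/
theorem exists_relToM {A B : Type u} [CommRing A] [CommRing B] (f : A →+* B)
    (hs : Function.Surjective (PrimeSpectrum.comap f)) :
    ∃ ρ : η.rel f →+* η.M A, ∀ b : η.rel f, η.Nmap f (ρ b : η.N A) = η.t B b := by
  classical
  have hinj := Nmap_injective_of_comap_surjective η f hs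
  have hex : ∀ b : η.rel f, ∃ x : η.M A, η.Nmap f (x : η.N A) = η.t B b := fun b => by
    obtain ⟨x, hx, h⟩ := b.2
    exact ⟨⟨x, hx⟩, h⟩
  choose ρf hρf using hex
  have hinj' : ∀ x y : η.M A, η.Nmap f (x : η.N A) = η.Nmap f (y : η.N A) → x = y :=
    fun x y h => Subtype.ext (hinj h)
  let ρ : η.rel f →+* η.M A :=
    { toFun := ρf
      map_one' := hinj' _ _ (by rw [hρf, Subring.coe_one, map_one, Subring.coe_one, map_one])
      map_mul' := fun x y => hinj' _ _ (by
        rw [hρf, Subring.coe_mul, map_mul, Subring.coe_mul, map_mul, hρf, hρf])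
      map_zero' := hinj' _ _ (by
        rw [hρf, Subring.coe_zero, map_zero, Subring.coe_zero, map_zero])
      map_add' := fun x y => hinj' _ _ (by
        rw [hρf, Subring.coe_add, map_add, Subring.coe_add, map_add, hρf, hρf]) }
  exact ⟨ρ, hρf⟩

section relToM

variable {A B : Type u} [CommRing A] [CommRing B] (f : A →+* B)
  (hs : Function.Surjective (PrimeSpectrum.comap f)) (ρ : η.rel f →+* η.M A)
  (hρ : ∀ b : η.rel f, η.Nmap f (ρ b : η.N A) = η.t B b)

include hs hρ in
theorem relToM_comp_qRel : ρ.comp (η.qRel f) = η.q A := by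
  refine RingHom.ext fun a => ?_
  apply Subtype.ext
  apply Nmap_injective_of_comap_surjective η f hs
  show η.Nmap f (ρ (η.qRel f a) : η.N A) = η.Nmap f (η.t A a)
  rw [hρ, η.Nmap_t_apply]
  rfl

include hs hρ in
theorem relToM_isIntegral (hA : (minimalPrimes A).Finite) : ρ.IsIntegral := by
  intro x
  obtain ⟨P, hPm, hP⟩ := Groth.Agent.S13802.result η A hA x
  refine ⟨P.map (η.qRel f), hPm.map _, ?_⟩
  rw [Polynomial.eval₂_map, relToM_comp_qRel η f hs ρ hρ]
  exact hP

include hρ in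
theorem relToM_ker_le (Q : PrimeSpectrum (η.rel f)) : RingHom.ker ρ ≤ Q.asIdeal := by
  intro b hb
  have h1 : η.t B b = 0 := by
    rw [← hρ, RingHom.mem_ker.mp hb]
    rw [Subring.coe_zero, map_zero]
  obtain ⟨n, hn⟩ := isNilpotent_of_t_eq_zero η B _ h1
  have hn' : b ^ n = 0 := Subtype.ext (by rw [SubmonoidClass.coe_pow]; exact hn)
  exact Q.2.mem_of_pow_mem n (by rw [hn']; exact Q.asIdeal.zero_mem)

include hs hρ in
theorem comap_relToM_surjective (hA : (minimalPrimes A).Finite) :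
    Function.Surjective (PrimeSpectrum.comap ρ) := by
  intro Q
  let _ : Algebra (η.rel f) (η.M A) := ρ.toAlgebra
  have : Algebra.IsIntegral (η.rel f) (η.M A) := ⟨relToM_isIntegral η f hs ρ hρ hA⟩
  obtain ⟨Q', -, hQ'p, hQ'c⟩ := Ideal.exists_ideal_over_prime_of_isIntegral
    (S := η.M A) Q.asIdeal ⊥ (by
      rw [← RingHom.ker_eq_comap_bot]
      exact relToM_ker_le η f ρ hρ Q)
  exact ⟨⟨Q', hQ'p⟩, PrimeSpectrum.ext hQ'c⟩

include hs hρ in
theorem comap_qRel_comap_relToM (Q' : PrimeSpectrum (η.M A)) :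
    PrimeSpectrum.comap (η.qRel f) (PrimeSpectrum.comap ρ Q') = PrimeSpectrum.comap (η.q A) Q' := by
  rw [← PrimeSpectrum.comap_comp_apply, relToM_comp_qRel η f hs ρ hρ]

end relToM

theorem comap_qRel_bijective {A B : Type u} [CommRing A] [CommRing B]
    (hA : (minimalPrimes A).Finite) (f : A →+* B)
    (hs : Function.Surjective (PrimeSpectrum.comap f)) :
    Function.Bijective (PrimeSpectrum.comap (η.qRel f)) := by
  obtain ⟨ρ, hρ⟩ := exists_relToM η f hs
  have hq := Groth.Agent.S13803.result η A hA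
  constructor
  · intro Q₁ Q₂ h
    obtain ⟨Q₁', rfl⟩ := comap_relToM_surjective η f hs ρ hρ hA Q₁
    obtain ⟨Q₂', rfl⟩ := comap_relToM_surjective η f hs ρ hρ hA Q₂
    rw [comap_qRel_comap_relToM η f hs ρ hρ, comap_qRel_comap_relToM η f hs ρ hρ] at h
    rw [hq.1.1 h]
  · intro P
    obtain ⟨QB, hQB⟩ := hs P
    exact ⟨PrimeSpectrum.comap (η.rel f).subtype QB, hQB⟩

/-- residue field factorization for `qRel f` -/
theorem qRel_residue {A B : Type u} [CommRing A] [CommRing B]
    (hA : (minimalPrimes A).Finite) (f : A →+* B)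
    (hs : Function.Surjective (PrimeSpectrum.comap f)) (Q : PrimeSpectrum (η.rel f)) :
    ∃ φ : Q.asIdeal.ResidueField →+* η.obj (PrimeSpectrum.comap (η.qRel f) Q).asIdeal.ResidueField,
      φ.comp (Ideal.ResidueField.map (PrimeSpectrum.comap (η.qRel f) Q).asIdeal Q.asIdeal
        (η.qRel f) rfl) = η.eta (PrimeSpectrum.comap (η.qRel f) Q).asIdeal.ResidueField := by
  obtain ⟨ρ, hρ⟩ := exists_relToM η f hs
  obtain ⟨Q', hQ'⟩ := comap_relToM_surjective η f hs ρ hρ hA Q
  have hP : PrimeSpectrum.comap (η.q A) Q' = PrimeSpectrum.comap (η.qRel f) Q := by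
    rw [← hQ', comap_qRel_comap_relToM η f hs ρ hρ]
  have hkQ' : Q' = kerPt η A (PrimeSpectrum.comap (η.qRel f) Q) := by
    rw [← hP]
    exact eq_kerPt η A hA Q'
  let ev : η.rel f →+* η.obj (PrimeSpectrum.comap (η.qRel f) Q).asIdeal.ResidueField :=
    (evM η A (PrimeSpectrum.comap (η.qRel f) Q)).comp ρ
  have hmem : ∀ b, b ∈ Q.asIdeal ↔ ρ b ∈ Q'.asIdeal := by
    intro b
    rw [← hQ']
    rfl
  have hker : Q.asIdeal = RingHom.ker ev := by
    ext b
    rw [hmem, hkQ']
    rfl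
  have hf₁ : Q.asIdeal ≤ RingHom.ker ev := hker.le
  have hf₂ : Q.asIdeal.primeCompl ≤ (IsUnit.submonoid _).comap ev := by
    intro y hy
    show IsUnit _
    apply IsUnit.mk0
    intro h0
    apply hy
    rw [hker]
    exact h0
  refine ⟨Ideal.ResidueField.lift Q.asIdeal ev hf₁ hf₂, ?_⟩
  apply Ideal.ResidueField.ringHom_ext
  ext a
  simp only [RingHom.comp_apply]
  have h1 : Ideal.ResidueField.map (PrimeSpectrum.comap (η.qRel f) Q).asIdeal Q.asIdeal
      (η.qRel f) rfl (algebraMap A _ a) =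
      algebraMap (η.rel f) Q.asIdeal.ResidueField (η.qRel f a) :=
    Ideal.ResidueField.map_algebraMap _ _ _ _ a
  refine (congrArg (Ideal.ResidueField.lift Q.asIdeal ev hf₁ hf₂) h1).trans
    ((Ideal.ResidueField.lift_algebraMap Q.asIdeal ev hf₁ hf₂ (η.qRel f a)).trans ?_)
  show evM η A _ (ρ (η.qRel f a)) = _
  rw [← RingHom.comp_apply ρ, relToM_comp_qRel η f hs ρ hρ]
  rfl

end Groth.Agent.Lib.Helper20
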