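import Groth.Agent.Lib.Helper20.EtaPt11

set_option autoImplicit false

namespace Groth.Agent.Lib.Helper20

universe u

open EtaPt

variable (η : EtaPt.FieldEndo.{u})

/-- elements of `M η C` vanishing at a prime vanish at all its specializations -/
theorem M_specializes (C : Type u) [CommRing C] (z : η.N C) (hz : z ∈ η.M C)
    (Q₀ Q₁ : PrimeSpectrum C) (hle : Q₀ ≤ Q₁) (h0 : z Q₀ = 0) : z Q₁ = 0 := by
  classical
  let π : C →+* C ⧸ Q₀.asIdeal := Ideal.Quotient.mk Q₀.asIdeal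
  have hπs : Function.Surjective π := Ideal.Quotient.mk_surjective
  have hzD : η.Nmap π z ∈ η.M (C ⧸ Q₀.asIdeal) := Nmap_mem_M η π hz
  have hgen : PrimeSpectrum.comap π (gen (C ⧸ Q₀.asIdeal)) = Q₀ := by
    ext a
    simp only [gen, PrimeSpectrum.comap_asIdeal, Ideal.mem_comap, Ideal.mem_bot]
    exact Ideal.Quotient.eq_zero_iff_mem
  have hz0 : η.Nmap π z = 0 := by
    apply injOn_gen η (C ⧸ Q₀.asIdeal) hzD (η.M (C ⧸ Q₀.asIdeal)).zero_mem
    show η.Nmap π z (gen (C ⧸ Q₀.asIdeal)) = 0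
    rw [Nmap_apply_of_eq η π z (gen (C ⧸ Q₀.asIdeal)) Q₀ hgen, h0, map_zero]
  have hPr : Q₁ ∈ Set.range (PrimeSpectrum.comap π) := by
    rw [range_comap_of_surjective _ π hπs, PrimeSpectrum.mem_zeroLocus]
    intro a ha
    have : a ∈ Q₀.asIdeal := by
      have h2 : a ∈ RingHom.ker π := ha
      rwa [Ideal.mk_ker] at h2
    exact hle this
  obtain ⟨Q₁', rfl⟩ := hPr
  have h2 := congrFun hz0 Q₁'
  rw [Nmap_apply] at h2
  exact (map_eq_zero_iff _ (η.map _).injective).mp h2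

/-- an element of `M η C` vanishing at all primes in the image of `Spec ι` for an injective `ι`
vanishes -/
theorem eq_zero_of_vanish_on_image {C D : Type u} [CommRing C] [CommRing D] (ι : C →+* D)
    (hι : Function.Injective ι) (z : η.N C) (hz : z ∈ η.M C)
    (h : ∀ Q : PrimeSpectrum D, z (PrimeSpectrum.comap ι Q) = 0) : z = 0 := by
  funext Q'
  obtain ⟨q0, hq0, hq0le⟩ := Ideal.exists_minimalPrimes_le (bot_le : ⊥ ≤ Q'.asIdeal)
  obtain ⟨p', hp', hp'c⟩ := Ideal.exists_comap_eq_of_mem_minimalPrimes_of_injective hι q0 hq0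
  have h0 := h ⟨p', hp'⟩
  have heq : PrimeSpectrum.comap ι ⟨p', hp'⟩ = ⟨q0, hq0.isPrime⟩ := PrimeSpectrum.ext hp'c
  rw [heq] at h0
  exact M_specializes η C z hz ⟨q0, hq0.isPrime⟩ Q' hq0le h0

end Groth.Agent.Lib.Helper20
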