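import Groth.Agent.Lib.Helper20.EtaPt12

set_option autoImplicit false

namespace Groth.Agent.Lib.Helper20

universe u

open EtaPt

variable (η : EtaPt.FieldEndo.{u})

theorem lift_comp_q {A B : Type u} [CommRing A] [CommRing B] (f : A →+* B)
    (g : η.M A →+* η.M B)
    (hg : ∀ x : η.M A, ((g x : η.M B) : η.N B) = η.Nmap f (x : η.N A)) :
    g.comp (η.q A) = (η.q B).comp f := by
  refine RingHom.ext fun a => Subtype.ext ?_
  show ((g (η.q A a) : η.M B) : η.N B) = η.t B (f a)
  rw [hg]
  exact η.Nmap_t_apply f a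

end Groth.Agent.Lib.Helper20
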