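import Groth.Agent.Lib.Helper20.EtaPt12
import Mathlib.RingTheory.Localization.Integral
import Mathlib.RingTheory.Ideal.MinimalPrime.Localization
import Mathlib.RingTheory.SurjectiveOnStalks

set_option autoImplicit false

namespace Groth.Agent.Lib.Helper20

universe u

open EtaPt

variable (η : EtaPt.FieldEndo.{u})

theorem apply_eq_of_Nmap_eq {A B : Type u} [CommRing A] [CommRing B] (j : A →+* B)
    {a b : η.N A} (h : η.Nmap j a = η.Nmap j b) (Q : PrimeSpectrum B) (P : PrimeSpectrum A)
    (hQ : PrimeSpectrum.comap j Q = P) : a P = b P := by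
  have h1 := congrFun h Q
  rw [Nmap_apply_of_eq η j a Q P hQ, Nmap_apply_of_eq η j b Q P hQ] at h1
  exact (η.map _).injective h1

/-- `N η` of a map with injective `Spec` and surjective residue field maps is surjective -/
theorem Nmap_surjective_of {A B : Type u} [CommRing A] [CommRing B] (f : A →+* B)
    (hinj : Function.Injective (PrimeSpectrum.comap f))
    (hm : ∀ Q : PrimeSpectrum B, Function.Surjective
      (η.map (Ideal.ResidueField.map (PrimeSpectrum.comap f Q).asIdeal Q.asIdeal f rfl))) :
    Function.Surjective (η.Nmap f) := by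
  classical
  intro y
  let e : PrimeSpectrum B ≃ Set.range (PrimeSpectrum.comap f) := Equiv.ofInjective _ hinj
  let w := Equiv.piCongrLeft
    (fun p : Set.range (PrimeSpectrum.comap f) => η.obj p.1.asIdeal.ResidueField) e
    (fun Q => Function.surjInv (hm Q) (y Q))
  let x : η.N A := fun P => if h : P ∈ Set.range (PrimeSpectrum.comap f) then w ⟨P, h⟩ else 0
  refine ⟨x, ?_⟩
  funext Q
  rw [Nmap_apply]
  have h1 : x (PrimeSpectrum.comap f Q) = Function.surjInv (hm Q) (y Q) := by
    show (if h : _ then _ else _) = _
    rw [dif_pos ⟨Q, rfl⟩]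
    exact Equiv.piCongrLeft_apply_apply _ e _ Q
  rw [h1]
  exact Function.surjInv_eq _ _

theorem localization_Nmap_surjective (A : Type u) [CommRing A] (S : Type u) [CommRing S]
    [Algebra A S] (M : Submonoid A) [IsLocalization M S] :
    Function.Surjective (η.Nmap (algebraMap A S)) := by
  apply Nmap_surjective_of η _ (PrimeSpectrum.localization_comap_injective S M)
  intro Q
  have hb := (RingHom.surjectiveOnStalks_of_isLocalization M S).residueFieldMap_bijective
    (PrimeSpectrum.comap (algebraMap A S) Q).asIdeal Q.asIdeal rfl
  exact (map_bijective_of_equiv η (RingEquiv.ofBijective _ hb)).2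

theorem minimalPrimes_away_finite (A : Type u) [CommRing A] (hA : (minimalPrimes A).Finite)
    (f : A) : (minimalPrimes (Localization.Away f)).Finite := by
  have h := IsLocalization.minimalPrimes_map (Submonoid.powers f) (Localization.Away f)
    (⊥ : Ideal A)
  rw [Ideal.map_bot] at h
  show ((⊥ : Ideal (Localization.Away f)).minimalPrimes).Finite
  rw [h]
  refine hA.preimage (fun I _ J _ hIJ => ?_)
  rw [← IsLocalization.map_under (Submonoid.powers f) (Localization.Away f) I,
    ← IsLocalization.map_under (Submonoid.powers f) (Localization.Away f) J]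
  exact congrArg (Ideal.map (algebraMap A (Localization.Away f))) hIJ

end Groth.Agent.Lib.Helper20
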