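import Groth.Agent.Lib.Helper20.EtaPt14

set_option autoImplicit false

namespace Groth.Agent.Lib.Helper20

universe u

open EtaPt

variable (η : EtaPt.FieldEndo.{u})

theorem inV_residueField_bot (R : Type u) [CommRing R] [IsDomain R] (hR : η.InV R) :
    η.InV (⊥ : Ideal R).ResidueField := by
  have : IsFractionRing (⊥ : Ideal R).ResidueField (⊥ : Ideal R).ResidueField :=
    IsFractionRing.idem R (⊥ : Ideal R).ResidueField
  exact eta_bijective_of_equiv η
    (IsLocalization.algEquiv (nonZeroDivisors (⊥ : Ideal R).ResidueField)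
      (⊥ : Ideal R).ResidueField (FractionRing (⊥ : Ideal R).ResidueField)).toRingEquiv
    (eta_bijective_bot η R hR)

/-- the key step for localizations: elements of `M η A_f` times a power of `f` come from `M η A` -/
theorem exists_M_of_away (A : Type u) [CommRing A] (hA : (minimalPrimes A).Finite) (f : A)
    (y : η.N (Localization.Away f)) (hy : y ∈ η.M (Localization.Away f)) :
    ∃ x ∈ η.M A, ∃ n : ℕ,
      y * η.t (Localization.Away f) (algebraMap A (Localization.Away f) f) ^ n =
        η.Nmap (algebraMap A (Localization.Away f)) x := by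
  classical
  have hAf := minimalPrimes_away_finite A hA f
  let la : A →+* Localization.Away f := algebraMap A (Localization.Away f)
  let _ : Algebra (Localization.Away f) (η.M (Localization.Away f)) :=
    (η.q (Localization.Away f)).toAlgebra
  let _ : Algebra A (η.M (Localization.Away f)) := ((η.q (Localization.Away f)).comp la).toAlgebra
  have : IsScalarTower A (Localization.Away f) (η.M (Localization.Away f)) :=
    IsScalarTower.of_algebraMap_eq (fun a => rfl)
  have hyint : IsIntegral (Localization.Away f) (⟨y, hy⟩ : η.M (Localization.Away f)) :=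
    Groth.Agent.S13802.result η (Localization.Away f) hAf ⟨y, hy⟩
  obtain ⟨⟨_, k, rfl⟩, hm⟩ := IsIntegral.exists_multiple_integral_of_isLocalization
    (Submonoid.powers f) (⟨y, hy⟩ : η.M (Localization.Away f)) hyint
  set zM : η.M (Localization.Away f) :=
    (⟨f ^ k, k, rfl⟩ : Submonoid.powers f) • (⟨y, hy⟩ : η.M (Localization.Away f)) with hzMdef
  have hzM : (zM : η.N (Localization.Away f)) =
      η.t (Localization.Away f) (la f) ^ k * y := by
    rw [hzMdef, Submonoid.smul_def, Algebra.smul_def]
    show η.t (Localization.Away f) (la (f ^ k)) * y = _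
    rw [map_pow, map_pow]
  obtain ⟨P, hPm, hP⟩ := hm
  obtain ⟨x0, hx0⟩ := localization_Nmap_surjective η A (Localization.Away f)
    (Submonoid.powers f) (zM : η.N (Localization.Away f))
  let x : η.N A := η.t A f * x0
  have hx : η.Nmap la x = η.t (Localization.Away f) (la f) * zM := by
    show η.Nmap la (η.t A f * x0) = _
    rw [map_mul, η.Nmap_t_apply, hx0]
  have hxNM : η.Nmap la x ∈ η.M (Localization.Away f) := by
    rw [hx]
    exact Subring.mul_mem _ (η.t_mem_M _ _) zM.2
  refine ⟨x, ?_, k + 1, ?_⟩
  swap
  · rw [hx, hzM, pow_succ]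
    ring
  intro R _ _ _ hR g
  by_cases hgf : g f = 0
  · refine ⟨0, ?_⟩
    show η.t R 0 = η.Nmap g (η.t A f * x0)
    rw [map_mul, η.Nmap_t_apply, hgf, map_zero, zero_mul]
  -- the generic point
  let K := (⊥ : Ideal R).ResidueField
  let ιK : R →+* K := algebraMap R K
  have hιK : Function.Injective ιK := algebraMap_residueField_bot_injective R
  have hunitK : IsUnit ((ιK.comp g) f) := by
    apply IsUnit.mk0
    intro h0
    exact hgf (hιK (by rw [map_zero]; exact h0))
  let gK : Localization.Away f →+* K := IsLocalization.Away.lift f hunitK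
  have hgK : gK.comp la = ιK.comp g := IsLocalization.Away.lift_comp f hunitK
  have hKV := inV_residueField_bot η R hR
  obtain ⟨c', hc'⟩ := zM.2 K hKV gK
  -- integrality of c'
  have hPK : Polynomial.eval₂ (ιK.comp g) c' P = 0 := by
    apply t_injective η K
    rw [map_zero, Polynomial.hom_eval₂]
    have e1 : (η.t K).comp (ιK.comp g) = (η.Nmap gK).comp ((η.t (Localization.Away f)).comp la) := by
      rw [← hgK]
      ext1 a
      simp only [RingHom.comp_apply]
      rw [η.Nmap_t_apply]
    rw [e1, hc', ← Polynomial.hom_eval₂]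
    have e2 : Polynomial.eval₂ ((η.t (Localization.Away f)).comp la)
        (zM : η.N (Localization.Away f)) P = 0 := by
      have := congrArg (η.M (Localization.Away f)).subtype hP
      rw [Polynomial.hom_eval₂, map_zero] at this
      exact this
    rw [e2, map_zero]
  have hc'int : IsIntegral R c' := by
    refine ⟨P.map g, hPm.map g, ?_⟩
    rw [Polynomial.eval₂_map]
    exact hPK
  obtain ⟨r', hr'⟩ := IsIntegrallyClosed.isIntegral_iff.mp hc'int
  let r : R := r' * g f
  refine ⟨r, ?_⟩
  -- generic consistency
  have hgen : η.Nmap g x (gen R) = η.t R r (gen R) := by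
    have e1 : η.Nmap ιK (η.Nmap g x) = η.Nmap ιK (η.t R r) := by
      rw [← Nmap_comp, ← hgK, Nmap_comp, hx, η.Nmap_t_apply, map_mul, η.Nmap_t_apply, ← hc']
      rw [← map_mul]
      congr 1
      show gK (la f) * c' = ιK (r' * g f)
      rw [map_mul, hr', mul_comm]
      congr 1
      exact RingHom.congr_fun hgK f
    exact apply_eq_of_Nmap_eq η ιK e1 (gen K) (gen R) (comap_gen_of_injective ιK hιK)
  symm
  funext Q
  by_cases hQ : g f ∈ Q.asIdeal
  · rw [Nmap_apply, t_apply]
    have h1 : x (PrimeSpectrum.comap g Q) = 0 := by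
      show η.t A f (PrimeSpectrum.comap g Q) * x0 (PrimeSpectrum.comap g Q) = 0
      rw [t_apply, (Ideal.algebraMap_residueField_eq_zero
        (I := (PrimeSpectrum.comap g Q).asIdeal)).mpr hQ, map_zero, zero_mul]
    rw [h1, map_zero, Ideal.algebraMap_residueField_eq_zero.mpr
      (Q.asIdeal.mul_mem_left r' hQ), map_zero]
  · obtain ⟨Ω, _, V, j, -, hj, hjQ, -⟩ := exists_valuation_extension η (RingHom.id R)
      (fun a => (RingHom.id R).isIntegralElem_map) (fun P => ⟨P, rfl⟩) R (RingHom.id R) Q
    have hunitV : IsUnit ((j.comp g) f) := by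
      by_contra hnu
      apply hQ
      have : j (g f) ∈ IsLocalRing.maximalIdeal V := hnu
      rw [← hjQ]
      exact this
    let h' : Localization.Away f →+* V := IsLocalization.Away.lift f hunitV
    have hh' : h'.comp la = j.comp g := IsLocalization.Away.lift_comp f hunitV
    obtain ⟨s, hs⟩ := hxNM V (inV_of_valuationSubring_obj η Ω V) h'
    have hs' : η.t V s = η.Nmap j (η.Nmap g x) := by
      rw [hs, ← Nmap_comp, hh', Nmap_comp]
    have hsj : s = j r := by
      have e1 := congrFun hs' (gen V)
      rw [Nmap_apply_of_eq η j _ (gen V) (gen R) (comap_gen_of_injective j hj), hgen,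
        t_apply, t_apply, eta_natural_apply] at e1
      have e2 := (η.eta (gen V).asIdeal.ResidueField).injective e1
      apply algebraMap_residueField_bot_injective V
      rw [e2]
      exact Ideal.ResidueField.map_algebraMap _ _ _ _ r
    have e3 : η.Nmap j (η.Nmap g x) = η.Nmap j (η.t R r) := by
      rw [← hs', hsj, η.Nmap_t_apply]
    exact apply_eq_of_Nmap_eq η j e3 (IsLocalRing.closedPoint V) Q hjQ

end Groth.Agent.Lib.Helper20
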