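import Groth.Agent.Lib.Helper20.EtaPt15

set_option autoImplicit false

namespace Groth.Agent.Lib.Helper20

universe u

open EtaPt

variable (η : EtaPt.FieldEndo.{u})

theorem t_mul_eq_zero_of_Nmap_away (B : Type u) [CommRing B] (s : B) (w : η.N B)
    (h : η.Nmap (algebraMap B (Localization.Away s)) w = 0) : η.t B s * w = 0 := by
  funext P
  rw [Pi.mul_apply, Pi.zero_apply]
  by_cases hP : s ∈ P.asIdeal
  · rw [t_apply, Ideal.algebraMap_residueField_eq_zero.mpr hP, map_zero, zero_mul]
  · have hr : P ∈ Set.range (PrimeSpectrum.comap (algebraMap B (Localization.Away s))) := by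
      rw [PrimeSpectrum.localization_away_comap_range (Localization.Away s) s]
      exact hP
    obtain ⟨Q, hQ⟩ := hr
    have h1 : η.Nmap (algebraMap B (Localization.Away s)) w =
        η.Nmap (algebraMap B (Localization.Away s)) 0 := by rw [h, map_zero]
    have h2 := apply_eq_of_Nmap_eq η _ h1 Q P hQ
    rw [h2, Pi.zero_apply, mul_zero]

theorem awayMap_comp {A B : Type u} [CommRing A] [CommRing B] (φ : A →+* B) (f : A) :
    (Localization.awayMap φ f).comp (algebraMap A (Localization.Away f)) =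
      (algebraMap B (Localization.Away (φ f))).comp φ :=
  IsLocalization.map_comp _

theorem rel_away_le {A B : Type u} [CommRing A] [CommRing B] (φ : A →+* B) (f : A) :
    (η.rel φ).map (algebraMap B (Localization.Away (φ f))) ≤ η.rel (Localization.awayMap φ f) := by
  rintro _ ⟨b, ⟨x, hxM, hx⟩, rfl⟩
  refine ⟨η.Nmap (algebraMap A (Localization.Away f)) x, Nmap_mem_M η _ hxM, ?_⟩
  show η.Nmap (Localization.awayMap φ f) (η.Nmap (algebraMap A (Localization.Away f)) x) =
    η.t _ (algebraMap B (Localization.Away (φ f)) b)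
  rw [← Nmap_comp, awayMap_comp, Nmap_comp, hx, η.Nmap_t_apply]

theorem rel_away_exists {A B : Type u} [CommRing A] [CommRing B] (hA : (minimalPrimes A).Finite)
    (φ : A →+* B) (f : A) (y : Localization.Away (φ f))
    (hy : y ∈ η.rel (Localization.awayMap φ f)) :
    ∃ x ∈ η.rel φ, ∃ n : ℕ,
      y * algebraMap B (Localization.Away (φ f)) (φ f) ^ n =
        algebraMap B (Localization.Away (φ f)) x := by
  classical
  obtain ⟨x', hx'M, hx'⟩ := hy
  obtain ⟨x'', hx''M, m, hm⟩ := exists_M_of_away η A hA f x' hx'M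
  obtain ⟨⟨b, ⟨_, k, rfl⟩⟩, hyb⟩ := IsLocalization.mk'_surjective (Submonoid.powers (φ f)) y
  have hyk : y * algebraMap B (Localization.Away (φ f)) (φ f) ^ k =
      algebraMap B (Localization.Away (φ f)) b := by
    rw [← hyb, ← map_pow]
    exact IsLocalization.mk'_spec _ _ _
  obtain ⟨b2, hb2⟩ : ∃ b2 : B, b2 = b * φ f ^ m := ⟨_, rfl⟩
  obtain ⟨x3, hx3⟩ : ∃ x3 : η.N A, x3 = x'' * η.t A f ^ k := ⟨_, rfl⟩
  have hx3M : x3 ∈ η.M A := by
    rw [hx3]
    exact Subring.mul_mem _ hx''M (Subring.pow_mem _ (η.t_mem_M _ _) _)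
  have hψf : Localization.awayMap φ f (algebraMap A (Localization.Away f) f) =
      algebraMap B (Localization.Away (φ f)) (φ f) := RingHom.congr_fun (awayMap_comp φ f) f
  have key : η.Nmap (algebraMap B (Localization.Away (φ f))) (η.t B b2) =
      η.Nmap (algebraMap B (Localization.Away (φ f))) (η.Nmap φ x3) := by
    have e1 : η.Nmap (algebraMap B (Localization.Away (φ f))) (η.Nmap φ x3) =
        η.Nmap (Localization.awayMap φ f) (η.Nmap (algebraMap A (Localization.Away f)) x3) := by
      rw [← Nmap_comp, ← Nmap_comp, awayMap_comp]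
    have e2 : η.Nmap (algebraMap A (Localization.Away f)) x3 =
        x' * η.t _ (algebraMap A (Localization.Away f) f) ^ (m + k) := by
      rw [hx3, map_mul, ← hm, map_pow, η.Nmap_t_apply, pow_add, mul_assoc]
    have e3 : η.Nmap (Localization.awayMap φ f)
        (x' * η.t _ (algebraMap A (Localization.Away f) f) ^ (m + k)) =
        η.t _ y * η.t _ (algebraMap B (Localization.Away (φ f)) (φ f)) ^ (m + k) := by
      rw [map_mul, map_pow, η.Nmap_t_apply, hx', hψf]
    have e4 : η.Nmap (algebraMap B (Localization.Away (φ f))) (η.t B b2) =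
        η.t _ y * η.t _ (algebraMap B (Localization.Away (φ f)) (φ f)) ^ (m + k) := by
      rw [η.Nmap_t_apply, hb2, map_mul, map_pow, ← hyk, map_mul, map_mul, map_pow, map_pow,
        pow_add]
      ring
    rw [e4, e1, e2, e3]
  have hz : η.t B (φ f) * (η.t B b2 - η.Nmap φ x3) = 0 := by
    apply t_mul_eq_zero_of_Nmap_away η B (φ f)
    rw [map_sub, key, sub_self]
  refine ⟨φ f * b2, ⟨η.t A f * x3, Subring.mul_mem _ (η.t_mem_M _ _) hx3M, ?_⟩, k + m + 1, ?_⟩
  · rw [mul_sub, sub_eq_zero] at hz
    show η.Nmap φ (η.t A f * x3) = η.t B (φ f * b2)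
    rw [map_mul, η.Nmap_t_apply, map_mul, hz]
  · rw [hb2, map_mul, map_mul, map_pow, ← hyk]
    ring

end Groth.Agent.Lib.Helper20
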