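import Groth.Agent.Lib.Helper20.EtaPt14
import Groth.Prelude.Def_EGA4b

set_option autoImplicit false

namespace Groth.Agent.Lib.Helper20

universe u

open EtaPt

variable (η : EtaPt.FieldEndo.{u})

/-- the domain case: for an integrally closed domain with `η` bijective at its fraction field,
`M η D = t_D(D)` -/
theorem exists_t_eq_of_domain (D : Type u) [CommRing D] [IsDomain D] [IsIntegrallyClosed D]
    (hD : Function.Bijective (η.eta (⊥ : Ideal D).ResidueField)) (x : η.N D) (hx : x ∈ η.M D) :
    ∃ d : D, η.t D d = x := by
  obtain ⟨c, hc⟩ := hD.2 (x (gen D))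
  obtain ⟨P, hPm, hP⟩ := gen_isIntegralElem η D x hx
  have h1 : Polynomial.eval₂ (algebraMap D (⊥ : Ideal D).ResidueField) c P = 0 := by
    apply (η.eta (⊥ : Ideal D).ResidueField).injective
    rw [Polynomial.hom_eval₂, hc, map_zero]
    exact hP
  have hcint : IsIntegral D c := ⟨P, hPm, h1⟩
  obtain ⟨d, hd⟩ := IsIntegrallyClosed.isIntegral_iff.mp hcint
  refine ⟨d, injOn_gen η D (η.t_mem_M D d) hx ?_⟩
  show η.t D d (gen D) = x (gen D)
  rw [t_apply, ← hc]
  exact congrArg (η.eta _) hd

theorem ideal_eq_top_of_forall_maximal {A : Type u} [CommRing A] (J : Ideal A)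
    (h : ∀ m : Ideal A, m.IsMaximal → ∃ s ∈ J, s ∉ m) : J = ⊤ := by
  by_contra hne
  obtain ⟨m, hm, hJm⟩ := Ideal.exists_le_maximal J hne
  obtain ⟨s, hs, hsm⟩ := h m hm
  exact hsm (hJm hs)

section normal

variable {A : Type u} [CommRing A] (hn : EGA4.IsNormalRing A) (m : Ideal A) [m.IsMaximal]

include hn in
theorem normal_local_facts :
    (PrimeSpectrum.comap (algebraMap A (Localization.AtPrime m))
      (@gen (Localization.AtPrime m) _ (hn m).1)).asIdeal ∈ minimalPrimes A ∧
    ∀ q ∈ minimalPrimes A, q ≤ m →
      q = (PrimeSpectrum.comap (algebraMap A (Localization.AtPrime m))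
        (@gen (Localization.AtPrime m) _ (hn m).1)).asIdeal := by
  have : IsDomain (Localization.AtPrime m) := (hn m).1
  set p := PrimeSpectrum.comap (algebraMap A (Localization.AtPrime m)) (gen (Localization.AtPrime m))
  have hrange : ∀ q : Ideal A, q.IsPrime → q ≤ m → p.asIdeal ≤ q := by
    intro q hq hqm
    have hqr : (⟨q, hq⟩ : PrimeSpectrum A) ∈
        Set.range (PrimeSpectrum.comap (algebraMap A (Localization.AtPrime m))) := by
      rw [PrimeSpectrum.localization_comap_range (Localization.AtPrime m) m.primeCompl]
      show Disjoint (m.primeCompl : Set A) q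
      rw [Set.disjoint_left]
      intro a ha haq
      exact ha (hqm haq)
    obtain ⟨Q, hQ⟩ := hqr
    have : (PrimeSpectrum.comap (algebraMap A (Localization.AtPrime m))
        (gen (Localization.AtPrime m))).asIdeal ≤
        (PrimeSpectrum.comap (algebraMap A (Localization.AtPrime m)) Q).asIdeal :=
      Ideal.comap_mono bot_le
    rw [hQ] at this
    exact this
  have hpm : p.asIdeal ≤ m := by
    have h1 : (PrimeSpectrum.comap (algebraMap A (Localization.AtPrime m))
        (gen (Localization.AtPrime m))).asIdeal ≤
        (PrimeSpectrum.comap (algebraMap A (Localization.AtPrime m))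
          (IsLocalRing.closedPoint (Localization.AtPrime m))).asIdeal :=
      Ideal.comap_mono bot_le
    have h2 := IsLocalization.AtPrime.under_maximalIdeal (Localization.AtPrime m) m
    exact h1.trans h2.le
  refine ⟨⟨⟨p.2, bot_le⟩, fun q hq hqp => hrange q hq.1 (hqp.trans hpm)⟩, fun q hq hqm => ?_⟩
  exact le_antisymm (hq.2 ⟨p.2, bot_le⟩ (hrange q hq.1.1 hqm)) (hrange q hq.1.1 hqm)

end normal

theorem q_bijective_of_normal (A : Type u) [CommRing A] (hn : EGA4.IsNormalRing A)
    (hA : (minimalPrimes A).Finite)
    (hη : ∀ p : PrimeSpectrum A, p.asIdeal ∈ minimalPrimes A →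
      Function.Bijective (η.eta p.asIdeal.ResidueField)) :
    Function.Bijective (η.q A) := by
  classical
  constructor
  · intro a b hab
    have ht : η.t A (a - b) = 0 := by
      rw [map_sub]
      exact sub_eq_zero.mpr (congrArg Subtype.val hab)
    let J : Ideal A :=
      { carrier := {c | c * (a - b) = 0}
        add_mem' := fun {c₁ c₂} h₁ h₂ => by
          show (c₁ + c₂) * (a - b) = 0
          rw [add_mul, h₁, h₂, add_zero]
        zero_mem' := by
          show (0 : A) * (a - b) = 0
          rw [zero_mul]
        smul_mem' := fun c {c'} h => by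
          show (c • c') * (a - b) = 0
          rw [smul_eq_mul, mul_assoc, h, mul_zero] }
    have hJ : J = ⊤ := ideal_eq_top_of_forall_maximal J (fun m hm => by
      have : m.IsMaximal := hm
      have : IsDomain (Localization.AtPrime m) := (hn m).1
      have h1 : η.t (Localization.AtPrime m) (algebraMap A _ (a - b)) = 0 := by
        rw [← η.Nmap_t_apply, ht, map_zero]
      have h2 := t_injective η (Localization.AtPrime m) (h1.trans (map_zero _).symm)
      obtain ⟨⟨s, hs⟩, hs0⟩ := (IsLocalization.map_eq_zero_iff m.primeCompl _ _).mp h2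
      exact ⟨s, hs0, hs⟩)
    have h1 : (1 : A) ∈ J := hJ ▸ Submodule.mem_top
    have h3 : (1 : A) * (a - b) = 0 := h1
    rw [one_mul, sub_eq_zero] at h3
    exact h3
  · intro x
    let I : Ideal A :=
      { carrier := {a | ∃ b, η.t A b = η.t A a * (x : η.N A)}
        add_mem' := fun {a₁ a₂} ⟨b₁, h₁⟩ ⟨b₂, h₂⟩ =>
          ⟨b₁ + b₂, by rw [map_add, map_add, h₁, h₂, add_mul]⟩
        zero_mem' := ⟨0, by rw [map_zero, zero_mul]⟩
        smul_mem' := fun c {a} ⟨b, h⟩ =>
          ⟨c * b, by rw [smul_eq_mul, map_mul, map_mul, h, mul_assoc]⟩ }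
    have hI : I = ⊤ := ideal_eq_top_of_forall_maximal I (fun m hm => by
      have : m.IsMaximal := hm
      have : IsDomain (Localization.AtPrime m) := (hn m).1
      have : IsIntegrallyClosed (Localization.AtPrime m) := (hn m).2
      obtain ⟨hpmin, hother⟩ := normal_local_facts hn m
      have hbD : Function.Bijective
          (η.eta (⊥ : Ideal (Localization.AtPrime m)).ResidueField) := by
        have hb := (RingHom.surjectiveOnStalks_of_isLocalization m.primeCompl
          (Localization.AtPrime m)).residueFieldMap_bijective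
          (PrimeSpectrum.comap (algebraMap A (Localization.AtPrime m))
            (gen (Localization.AtPrime m))).asIdeal
          (gen (Localization.AtPrime m)).asIdeal rfl
        exact eta_bijective_of_equiv η (RingEquiv.ofBijective _ hb) (hη _ hpmin)
      obtain ⟨d, hd⟩ := exists_t_eq_of_domain η (Localization.AtPrime m) hbD _
        (Nmap_mem_M η (algebraMap A (Localization.AtPrime m)) x.2)
      obtain ⟨⟨c, s⟩, hcs⟩ := IsLocalization.mk'_surjective m.primeCompl d
      obtain ⟨z, hz⟩ : ∃ z : η.N A, z = η.t A c - η.t A s * (x : η.N A) := ⟨_, rfl⟩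
      have hzM : z ∈ η.M A := by
        rw [hz]
        exact Subring.sub_mem _ (η.t_mem_M _ _) (Subring.mul_mem _ (η.t_mem_M _ _) x.2)
      have hzD : η.Nmap (algebraMap A (Localization.AtPrime m)) z =
          η.Nmap (algebraMap A (Localization.AtPrime m)) 0 := by
        have e0 : algebraMap A (Localization.AtPrime m) c -
            algebraMap A (Localization.AtPrime m) s * d = 0 := by
          rw [← hcs]
          dsimp only
          rw [mul_comm, IsLocalization.mk'_spec, sub_self]
        rw [map_zero, hz, map_sub, map_mul, η.Nmap_t_apply, η.Nmap_t_apply, ← hd, ← map_mul,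
          ← map_sub, e0, map_zero]
      have hzp : z (PrimeSpectrum.comap (algebraMap A (Localization.AtPrime m))
          (gen (Localization.AtPrime m))) = 0 :=
        apply_eq_of_Nmap_eq η _ hzD (gen _) _ rfl
      have hex : ∀ q ∈ hA.toFinset.erase (PrimeSpectrum.comap
          (algebraMap A (Localization.AtPrime m)) (gen (Localization.AtPrime m))).asIdeal,
          ∃ e ∈ q, e ∉ m := by
        intro q hq
        rw [Finset.mem_erase, Set.Finite.mem_toFinset] at hq
        by_contra hne
        push Not at hne
        exact hq.1 (hother q hq.2 hne)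
      choose! ef hef using hex
      let e : A := ∏ q ∈ hA.toFinset.erase (PrimeSpectrum.comap
          (algebraMap A (Localization.AtPrime m)) (gen (Localization.AtPrime m))).asIdeal, ef q
      have hem : e ∉ m := by
        intro he
        obtain ⟨q, hq, hqm⟩ := (Ideal.IsPrime.prod_mem_iff).mp he
        exact (hef q hq).2 hqm
      have hez : η.t A e * z = 0 := by
        funext P
        rw [Pi.mul_apply, Pi.zero_apply]
        obtain ⟨q, hq, hqP⟩ := Ideal.exists_minimalPrimes_le (bot_le : ⊥ ≤ P.asIdeal)
        by_cases hqp : q = (PrimeSpectrum.comap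
            (algebraMap A (Localization.AtPrime m)) (gen (Localization.AtPrime m))).asIdeal
        · have hle : PrimeSpectrum.comap (algebraMap A (Localization.AtPrime m))
              (gen (Localization.AtPrime m)) ≤ P := by
            show _ ≤ P.asIdeal
            rw [← hqp]
            exact hqP
          rw [M_specializes η A z hzM _ P hle hzp, mul_zero]
        · have hqe : q ∈ hA.toFinset.erase (PrimeSpectrum.comap
              (algebraMap A (Localization.AtPrime m)) (gen (Localization.AtPrime m))).asIdeal := by
            rw [Finset.mem_erase, Set.Finite.mem_toFinset]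
            exact ⟨hqp, hq⟩
          have heP : e ∈ P.asIdeal :=
            (Ideal.IsPrime.prod_mem_iff (hp := P.2)).mpr ⟨q, hqe, hqP (hef q hqe).1⟩
          rw [t_apply, Ideal.algebraMap_residueField_eq_zero.mpr heP, map_zero, zero_mul]
      refine ⟨e * s, ⟨e * c, ?_⟩, ?_⟩
      · rw [hz, mul_sub, sub_eq_zero] at hez
        rw [map_mul, map_mul, hez, mul_assoc]
      · intro hes
        rcases (Ideal.IsPrime.mem_or_mem hm.isPrime hes) with h | h
        · exact hem h
        · exact s.2 h)
    have h1 : (1 : A) ∈ I := hI ▸ Submodule.mem_top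
    obtain ⟨b, hb⟩ := h1
    refine ⟨b, Subtype.ext ?_⟩
    show η.t A b = x
    rw [hb, map_one, one_mul]

end Groth.Agent.Lib.Helper20
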