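import Groth.Prelude.Def_W4c1chowmix47Eta
import Groth.Agent.Lib.Helper20.EtaPt
import Mathlib.RingTheory.Valuation.LocalSubring
import Mathlib.RingTheory.Localization.AtPrime.Basic

set_option autoImplicit false

namespace Groth.Agent.Lib.Helper20

universe u

open EtaPt

variable (η : EtaPt.FieldEndo.{u})

theorem Nmap_apply {A B : Type u} [CommRing A] [CommRing B] (f : A →+* B) (x : η.N A)
    (q : PrimeSpectrum B) :
    η.Nmap f x q = η.map (Ideal.ResidueField.map (PrimeSpectrum.comap f q).asIdeal q.asIdeal f rfl)
      (x (PrimeSpectrum.comap f q)) := rfl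

theorem Nmap_apply_of_eq {A B : Type u} [CommRing A] [CommRing B] (f : A →+* B) (x : η.N A)
    (q : PrimeSpectrum B) (p : PrimeSpectrum A) (h : PrimeSpectrum.comap f q = p) :
    η.Nmap f x q = η.map (Ideal.ResidueField.map p.asIdeal q.asIdeal f (by rw [← h]; rfl)) (x p) := by
  subst h; rfl

theorem t_apply (A : Type u) [CommRing A] (a : A) (p : PrimeSpectrum A) :
    η.t A a p = η.eta _ (algebraMap A p.asIdeal.ResidueField a) := rfl

/-- the generic point of a domain -/
abbrev gen (A : Type u) [CommRing A] [IsDomain A] : PrimeSpectrum A := ⟨⊥, Ideal.isPrime_bot⟩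

theorem algebraMap_residueField_bot_injective (A : Type u) [CommRing A] [IsDomain A] :
    Function.Injective (algebraMap A (⊥ : Ideal A).ResidueField) := by
  rw [injective_iff_map_eq_zero]
  intro a ha
  have : a ∈ RingHom.ker (algebraMap A (⊥ : Ideal A).ResidueField) := ha
  rw [Ideal.ker_algebraMap_residueField] at this
  exact this

theorem t_injective (A : Type u) [CommRing A] [IsDomain A] : Function.Injective (η.t A) := by
  intro a b hab
  have h := congrFun hab (gen A)
  rw [t_apply, t_apply] at h
  exact algebraMap_residueField_bot_injective A ((η.eta _).injective h)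

theorem comap_gen_of_injective {A B : Type u} [CommRing A] [IsDomain A] [CommRing B] [IsDomain B]
    (g : A →+* B) (hg : Function.Injective g) : PrimeSpectrum.comap g (gen B) = gen A := by
  ext a
  simp only [gen, PrimeSpectrum.comap_asIdeal, Ideal.mem_comap, Ideal.mem_bot]
  exact ⟨fun h => hg (by rw [h, map_zero]), fun h => by rw [h, map_zero]⟩

theorem inV_valuationSubring (A : Type u) [CommRing A] [IsDomain A] (hA : η.InV A)
    (V : ValuationSubring (FractionRing A)) : η.InV V :=
  eta_bijective_of_equiv η
    (IsLocalization.algEquiv (nonZeroDivisors V) (FractionRing A) (FractionRing V)).toRingEquiv hA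

/-- a valuation subring of the fraction field dominating the localization at a prime -/
theorem exists_valuationSubring_dominating (A : Type u) [CommRing A] [IsDomain A]
    (P : PrimeSpectrum A) :
    ∃ (V : ValuationSubring (FractionRing A)) (g : A →+* V), Function.Injective g ∧
      PrimeSpectrum.comap g (IsLocalRing.closedPoint V) = P ∧
      ∀ a : A, (g a : FractionRing A) = algebraMap A (FractionRing A) a := by
  classical
  have hle : P.asIdeal.primeCompl ≤ (nonZeroDivisors A).comap (RingHom.id A) := by
    intro s hs
    apply mem_nonZeroDivisors_of_ne_zero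
    intro h0
    apply hs
    rw [h0]
    exact P.asIdeal.zero_mem
  let f : Localization.AtPrime P.asIdeal →+* FractionRing A :=
    IsLocalization.map (FractionRing A) (RingHom.id A) hle
  obtain ⟨V, hV, hloc⟩ := IsLocalRing.exists_factor_valuationRing f
  let g₀ : Localization.AtPrime P.asIdeal →+* V := f.codRestrict V.toSubring hV
  let g : A →+* V := g₀.comp (algebraMap A (Localization.AtPrime P.asIdeal))
  have hg : ∀ a : A, (g a : FractionRing A) = algebraMap A (FractionRing A) a := by
    intro a
    show f (algebraMap A _ a) = _
    rw [IsLocalization.map_eq]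
    rfl
  refine ⟨V, g, ?_, ?_, hg⟩
  · intro a b hab
    apply IsFractionRing.injective A (FractionRing A)
    rw [← hg, ← hg, hab]
  · have h1 : PrimeSpectrum.comap g (IsLocalRing.closedPoint V) =
        PrimeSpectrum.comap (algebraMap A (Localization.AtPrime P.asIdeal))
          (PrimeSpectrum.comap g₀ (IsLocalRing.closedPoint V)) := rfl
    rw [h1, IsLocalRing.comap_closedPoint]
    ext1
    exact IsLocalization.AtPrime.under_maximalIdeal (Localization.AtPrime P.asIdeal) P.asIdeal

end Groth.Agent.Lib.Helper20
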