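import Groth.Agent.Lib.Helper20.EtaPt2

set_option autoImplicit false

namespace Groth.Agent.Lib.Helper20

universe u

open EtaPt

variable (η : EtaPt.FieldEndo.{u})

theorem residueField_map_comp {A B C : Type u} [CommRing A] [CommRing B] [CommRing C]
    (I : Ideal A) [I.IsPrime] (J : Ideal B) [J.IsPrime] (K : Ideal C) [K.IsPrime]
    (f : A →+* B) (g : B →+* C) (hf : I = J.comap f) (hg : J = K.comap g)
    (hgf : I = K.comap (g.comp f)) :
    (Ideal.ResidueField.map J K g hg).comp (Ideal.ResidueField.map I J f hf) =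
      Ideal.ResidueField.map I K (g.comp f) hgf := by
  apply Ideal.ResidueField.ringHom_ext
  ext a
  simp only [RingHom.comp_apply, Ideal.ResidueField.map_algebraMap]

theorem Nmap_comp {A B C : Type u} [CommRing A] [CommRing B] [CommRing C] (f : A →+* B)
    (g : B →+* C) (x : η.N A) : η.Nmap (g.comp f) x = η.Nmap g (η.Nmap f x) := by
  funext q
  show η.map (Ideal.ResidueField.map (PrimeSpectrum.comap f (PrimeSpectrum.comap g q)).asIdeal
      q.asIdeal (g.comp f) rfl) (x (PrimeSpectrum.comap f (PrimeSpectrum.comap g q))) =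
    η.map (Ideal.ResidueField.map (PrimeSpectrum.comap g q).asIdeal q.asIdeal g rfl)
      (η.map (Ideal.ResidueField.map (PrimeSpectrum.comap f (PrimeSpectrum.comap g q)).asIdeal
        (PrimeSpectrum.comap g q).asIdeal f rfl) (x (PrimeSpectrum.comap f (PrimeSpectrum.comap g q))))
  rw [← RingHom.comp_apply (η.map _) (η.map _), ← η.map_comp]
  have key := residueField_map_comp (PrimeSpectrum.comap f (PrimeSpectrum.comap g q)).asIdeal
    (PrimeSpectrum.comap g q).asIdeal q.asIdeal f g rfl rfl rfl
  exact congrArg (fun φ => η.map φ (x (PrimeSpectrum.comap f (PrimeSpectrum.comap g q)))) key.symm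

theorem exists_comap_eq_of_injective_Nmap {A B : Type u} [CommRing A] [CommRing B] (f : A →+* B)
    (hN : Function.Injective (η.Nmap f)) (p : PrimeSpectrum A) :
    ∃ q : PrimeSpectrum B, PrimeSpectrum.comap f q = p := by
  classical
  by_contra hne
  push Not at hne
  let x : η.N A := Pi.single (M := fun p : PrimeSpectrum A => η.obj p.asIdeal.ResidueField) p 1
  have hx : η.Nmap f x = η.Nmap f 0 := by
    rw [map_zero]
    funext q
    rw [Nmap_apply]
    have : x (PrimeSpectrum.comap f q) = 0 :=
      Pi.single_eq_of_ne (M := fun p : PrimeSpectrum A => η.obj p.asIdeal.ResidueField) (hne q) _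
    rw [this, map_zero]
    rfl
  have h1 := congrFun (hN hx) p
  have h2 : x p = 1 :=
    Pi.single_eq_same (M := fun p : PrimeSpectrum A => η.obj p.asIdeal.ResidueField) p 1
  rw [h2] at h1
  exact one_ne_zero h1

theorem map_surjective_of_surjective_Nmap {A B : Type u} [CommRing A] [CommRing B] (f : A →+* B)
    (hN : Function.Surjective (η.Nmap f)) (q : PrimeSpectrum B) (p : PrimeSpectrum A)
    (h : PrimeSpectrum.comap f q = p) :
    Function.Surjective (η.map (Ideal.ResidueField.map p.asIdeal q.asIdeal f
      (by rw [← h]; rfl))) := by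
  classical
  intro z
  obtain ⟨x, hx⟩ := hN (Pi.single (M := fun q : PrimeSpectrum B => η.obj q.asIdeal.ResidueField) q z)
  refine ⟨x p, ?_⟩
  have h1 := congrFun hx q
  rw [Nmap_apply_of_eq η f x q p h] at h1
  rw [h1]
  exact Pi.single_eq_same (M := fun q : PrimeSpectrum B => η.obj q.asIdeal.ResidueField) q z

theorem comap_injective_of_surjective_Nmap {A B : Type u} [CommRing A] [CommRing B] (f : A →+* B)
    (hN : Function.Surjective (η.Nmap f)) {q₁ q₂ : PrimeSpectrum B}
    (h : PrimeSpectrum.comap f q₁ = PrimeSpectrum.comap f q₂) : q₁ = q₂ := by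
  classical
  by_contra hne
  obtain ⟨x, hx⟩ := hN (Pi.single (M := fun q : PrimeSpectrum B => η.obj q.asIdeal.ResidueField) q₁ 1)
  have h1 := congrFun hx q₁
  have h2 := congrFun hx q₂
  rw [Pi.single_eq_same (M := fun q : PrimeSpectrum B => η.obj q.asIdeal.ResidueField)] at h1
  rw [Pi.single_eq_of_ne (M := fun q : PrimeSpectrum B => η.obj q.asIdeal.ResidueField)
    (Ne.symm hne)] at h2
  rw [Nmap_apply] at h1
  rw [Nmap_apply_of_eq η f x q₂ (PrimeSpectrum.comap f q₁) h.symm] at h2
  have : x (PrimeSpectrum.comap f q₁) = 0 := (map_eq_zero_iff _ (η.map _).injective).mp h2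
  rw [this, map_zero] at h1
  exact zero_ne_one h1

theorem pow_expChar_pow_injective_of_field {K L : Type u} [Field K] [Field L] (ψ : K →+* L)
    (n : ℕ) : Function.Injective (fun z : L => z ^ (ringExpChar K ^ n)) := by
  have : ExpChar K (ringExpChar K) := ringExpChar.expChar K
  have : ExpChar L (ringExpChar K) := expChar_of_injective_ringHom ψ.injective _
  intro x y hxy
  have hinj := (frobenius_inj L (ringExpChar K)).iterate n
  apply hinj
  simp only [iterate_frobenius]
  exact hxy

end Groth.Agent.Lib.Helper20
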