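import Groth.Agent.Lib.Helper20.EtaPt5

set_option autoImplicit false

namespace Groth.Agent.Lib.Helper20

universe u

open EtaPt

variable (η : EtaPt.FieldEndo.{u})

/-- `N η f` is bijective when `Spec f` is bijective and `F` of every residue field map is -/
theorem Nmap_bijective_of {A B : Type u} [CommRing A] [CommRing B] (f : A →+* B)
    (hc : Function.Bijective (PrimeSpectrum.comap f))
    (hm : ∀ Q : PrimeSpectrum B, Function.Bijective
      (η.map (Ideal.ResidueField.map (PrimeSpectrum.comap f Q).asIdeal Q.asIdeal f rfl))) :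
    Function.Bijective (η.Nmap f) := by
  classical
  constructor
  · intro x x' h
    funext P
    obtain ⟨Q, rfl⟩ := hc.2 P
    have h1 := congrFun h Q
    rw [Nmap_apply, Nmap_apply] at h1
    exact (hm Q).1 h1
  · intro y
    let e : PrimeSpectrum B ≃ PrimeSpectrum A := Equiv.ofBijective _ hc
    let x : η.N A := Equiv.piCongrLeft (fun p : PrimeSpectrum A => η.obj p.asIdeal.ResidueField) e
      (fun Q => Function.surjInv (hm Q).2 (y Q))
    refine ⟨x, ?_⟩
    funext Q
    rw [Nmap_apply]
    have : x (PrimeSpectrum.comap f Q) = Function.surjInv (hm Q).2 (y Q) :=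
      Equiv.piCongrLeft_apply_apply _ e _ Q
    rw [this]
    exact Function.surjInv_eq _ _

/-- if `ψ ∘ φ = η_K` then `F φ` is bijective -/
theorem map_bijective_of_comp_eq_eta {K L : Type u} [Field K] [Field L] (φ : K →+* L)
    (ψ : L →+* η.obj K) (h : ψ.comp φ = η.eta K) : Function.Bijective (η.map φ) := by
  have hcomp : (η.map ψ).comp (η.map φ) = η.map (η.eta K) := by rw [← η.map_comp, h]
  have hb := η.bijective_map_eta K
  refine ⟨(η.map φ).injective, fun y => ?_⟩
  obtain ⟨w, hw⟩ := hb.2 (η.map ψ y)
  refine ⟨w, (η.map ψ).injective ?_⟩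
  rw [← hw, ← RingHom.comp_apply, hcomp]

end Groth.Agent.Lib.Helper20
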