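import Groth.Agent.Lib.Helper20.EtaPt4
import Mathlib.RingTheory.TensorProduct.Basic
import Mathlib.RingTheory.Flat.Basic
import Mathlib.RingTheory.Ideal.GoingUp

set_option autoImplicit false

namespace Groth.Agent.Lib.Helper20

universe u

open EtaPt
open scoped TensorProduct

variable (η : EtaPt.FieldEndo.{u})

/-- two field extensions of a field embed into a common field -/
theorem exists_common_field (k K1 K2 : Type u) [Field k] [Field K1] [Field K2] (i1 : k →+* K1)
    (i2 : k →+* K2) :
    ∃ (Ω : Type u) (_ : Field Ω) (α : K1 →+* Ω) (β : K2 →+* Ω), α.comp i1 = β.comp i2 := by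
  classical
  let _ : Algebra k K1 := i1.toAlgebra
  let _ : Algebra k K2 := i2.toAlgebra
  have : Nontrivial (K1 ⊗[k] K2) :=
    Algebra.TensorProduct.nontrivial_of_algebraMap_injective_of_flat_left k K1 K2
      (algebraMap k K2).injective
  obtain ⟨m, hm⟩ := Ideal.exists_maximal (K1 ⊗[k] K2)
  let _ : Field ((K1 ⊗[k] K2) ⧸ m) := Ideal.Quotient.field m
  refine ⟨(K1 ⊗[k] K2) ⧸ m, inferInstance,
    (Ideal.Quotient.mk m).comp (Algebra.TensorProduct.includeLeft : K1 →ₐ[k] K1 ⊗[k] K2).toRingHom,
    (Ideal.Quotient.mk m).comp (Algebra.TensorProduct.includeRight : K2 →ₐ[k] K1 ⊗[k] K2).toRingHom,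
    ?_⟩
  ext c
  simp only [RingHom.comp_apply, AlgHom.toRingHom_eq_coe, RingHom.coe_coe]
  have h1 := (Algebra.TensorProduct.includeLeft : K1 →ₐ[k] K1 ⊗[k] K2).commutes c
  have h2 := (Algebra.TensorProduct.includeRight : K2 →ₐ[k] K1 ⊗[k] K2).commutes c
  change Ideal.Quotient.mk m (Algebra.TensorProduct.includeLeft (algebraMap k K1 c)) =
    Ideal.Quotient.mk m (Algebra.TensorProduct.includeRight (algebraMap k K2 c))
  rw [h1, h2]

/-- for `f : A → B` integral with `Spec f` surjective and `g : A → R` into a domain, and a prime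
`P` of `R`, there is a valuation ring `V` in `V_η`, an injective map `j : R → V` with
`j⁻¹ m_V = P`, and `g' : B → V` with `g' ∘ f = j ∘ g` -/
theorem exists_valuation_extension {A B : Type u} [CommRing A] [CommRing B] (f : A →+* B)
    (hf : f.IsIntegral) (hs : Function.Surjective (PrimeSpectrum.comap f))
    (R : Type u) [CommRing R] [IsDomain R] (g : A →+* R) (P : PrimeSpectrum R) :
    ∃ (Ω : Type u) (_ : Field Ω) (V : ValuationSubring (η.obj Ω)) (j : R →+* V) (g' : B →+* V),
      Function.Injective j ∧ PrimeSpectrum.comap j (IsLocalRing.closedPoint V) = P ∧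
      g'.comp f = j.comp g := by
  classical
  obtain ⟨q, hq⟩ := hs (PrimeSpectrum.comap g (gen R))
  let i1 : (PrimeSpectrum.comap g (gen R)).asIdeal.ResidueField →+* q.asIdeal.ResidueField :=
    Ideal.ResidueField.map _ _ f (congrArg PrimeSpectrum.asIdeal hq).symm
  let i2 : (PrimeSpectrum.comap g (gen R)).asIdeal.ResidueField →+*
      (gen R).asIdeal.ResidueField :=
    Ideal.ResidueField.map _ _ g rfl
  obtain ⟨Ω, _, α, β, hαβ⟩ := exists_common_field _ _ _ i1 i2
  let L := η.obj Ω
  let b : B →+* L := (η.eta Ω).comp (α.comp (algebraMap B q.asIdeal.ResidueField))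
  let ρ : R →+* L := (η.eta Ω).comp (β.comp (algebraMap R (gen R).asIdeal.ResidueField))
  have hρ : Function.Injective ρ := fun a c h =>
    algebraMap_residueField_bot_injective R (β.injective ((η.eta Ω).injective h))
  have hbf : ∀ a : A, b (f a) = ρ (g a) := by
    intro a
    show η.eta Ω (α (algebraMap B _ (f a))) = η.eta Ω (β (algebraMap R _ (g a)))
    congr 1
    have h1 : i1 (algebraMap A _ a) = algebraMap B q.asIdeal.ResidueField (f a) :=
      Ideal.ResidueField.map_algebraMap _ _ _ _ a
    have h2 : i2 (algebraMap A _ a) = algebraMap R (gen R).asIdeal.ResidueField (g a) :=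
      Ideal.ResidueField.map_algebraMap _ _ _ _ a
    rw [← h1, ← h2]
    exact RingHom.congr_fun hαβ _
  let _ : Algebra R L := ρ.toAlgebra
  let T := integralClosure R L
  have hbT : ∀ y : B, b y ∈ T := by
    intro y
    rw [mem_integralClosure_iff]
    obtain ⟨p, hpm, hp⟩ := hf y
    refine ⟨p.map g, hpm.map g, ?_⟩
    rw [Polynomial.eval₂_map]
    have hcomp : ρ.comp g = b.comp f := by ext a; exact (hbf a).symm
    show Polynomial.eval₂ (ρ.comp g) (b y) p = 0
    rw [hcomp, ← Polynomial.hom_eval₂, hp, map_zero]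
  have hinjT : Function.Injective (algebraMap R T) := fun a c h => hρ (congrArg Subtype.val h)
  obtain ⟨mT, -, hmTp, hmTc⟩ := Ideal.exists_ideal_over_prime_of_isIntegral (S := T) P.asIdeal ⊥
    (by rw [Ideal.comap_bot_of_injective _ hinjT]; exact bot_le)
  obtain ⟨V, gT, -, hgTP, hgTval⟩ := exists_valuationSubring_dominating_field T ⟨mT, hmTp⟩ L
    T.val.toRingHom Subtype.val_injective
  refine ⟨Ω, inferInstance, V, gT.comp (algebraMap R T), gT.comp (b.codRestrict T hbT), ?_, ?_, ?_⟩
  · intro a c h
    apply hρ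
    have h1 := congrArg Subtype.val h
    rw [RingHom.comp_apply, RingHom.comp_apply, hgTval, hgTval] at h1
    exact h1
  · show PrimeSpectrum.comap (algebraMap R T)
      (PrimeSpectrum.comap gT (IsLocalRing.closedPoint V)) = P
    rw [hgTP]
    ext1
    exact hmTc
  · ext a
    show (gT (b.codRestrict T hbT (f a)) : L) = (gT (algebraMap R T (g a)) : L)
    rw [hgTval, hgTval]
    exact hbf a

end Groth.Agent.Lib.Helper20
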