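import Groth.Agent.Lib.Helper20.EtaPt8

set_option autoImplicit false

namespace Groth.Agent.Lib.Helper20

universe u

open EtaPt

variable (η : EtaPt.FieldEndo.{u})

/-- the hard direction of descent of `M η` along integral maps with surjective `Spec` -/
theorem Nmap_mem_range_of {A B : Type u} [CommRing A] [CommRing B] (f : A →+* B)
    (hf : f.IsIntegral) (hs : Function.Surjective (PrimeSpectrum.comap f)) (x : η.N A)
    (hx : η.Nmap f x ∈ η.M B) (R : Type u) [CommRing R] [IsDomain R] [ValuationRing R]
    (hR : η.InV R) (g : A →+* R) : η.Nmap g x ∈ (η.t R).range := by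
  classical
  obtain ⟨c, hc⟩ := (eta_bijective_bot η R hR).2 (η.Nmap g x (gen R))
  have hgenV : ∀ (Ω : Type u) [Field Ω] (V : ValuationSubring (η.obj Ω)) (j : R →+* V)
      (hj : Function.Injective j) (v : V), η.t V v = η.Nmap j (η.Nmap g x) →
      algebraMap V (gen V).asIdeal.ResidueField v =
        Ideal.ResidueField.map (gen R).asIdeal (gen V).asIdeal j
          (congrArg PrimeSpectrum.asIdeal (comap_gen_of_injective j hj)).symm c := by
    intro Ω _ V j hj v hv
    have e1 := congrFun hv (gen V)
    rw [t_apply, Nmap_apply_of_eq η j _ (gen V) (gen R) (comap_gen_of_injective j hj), ← hc,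
      eta_natural_apply] at e1
    exact (η.eta _).injective e1
  have hext : ∀ P : PrimeSpectrum R, ∃ (Ω : Type u) (_ : Field Ω)
      (V : ValuationSubring (η.obj Ω)) (j : R →+* V) (v : V), Function.Injective j ∧
      PrimeSpectrum.comap j (IsLocalRing.closedPoint V) = P ∧
      η.t V v = η.Nmap j (η.Nmap g x) := by
    intro P
    obtain ⟨Ω, _, V, j, g', hj, hjP, hg'⟩ := exists_valuation_extension η f hf hs R g P
    obtain ⟨v, hv⟩ := hx V (inV_of_valuationSubring_obj η Ω V) g'
    refine ⟨Ω, inferInstance, V, j, v, hj, hjP, ?_⟩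
    rw [hv, ← Nmap_comp η f g' x, hg', Nmap_comp η g j x]
  have hcR : ∃ r : R, algebraMap R (gen R).asIdeal.ResidueField r = c := by
    obtain ⟨Ω, _, V, j, v, hj, hjP, hv⟩ := hext (IsLocalRing.closedPoint R)
    have hvc := hgenV Ω V j hj v hv
    by_cases hc0 : c = 0
    · exact ⟨0, by rw [map_zero, hc0]⟩
    rcases ValuationRing.isInteger_or_isInteger R c with ⟨r, hr⟩ | ⟨r', hr'⟩
    · exact ⟨r, hr⟩
    · by_cases hu : IsUnit r'
      · refine ⟨↑(hu.unit⁻¹), ?_⟩
        rw [map_units_inv (algebraMap R (gen R).asIdeal.ResidueField) hu.unit, IsUnit.unit_spec,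
          hr', inv_inv]
      · exfalso
        have hr'm : r' ∈ (IsLocalRing.closedPoint R).asIdeal := hu
        rw [← hjP] at hr'm
        have hjr' : j r' ∈ IsLocalRing.maximalIdeal V := hr'm
        apply hjr'
        have hmul : v * j r' = 1 := by
          apply algebraMap_residueField_bot_injective V
          have h3 : algebraMap V (gen V).asIdeal.ResidueField (j r') =
              Ideal.ResidueField.map (gen R).asIdeal (gen V).asIdeal j
                (congrArg PrimeSpectrum.asIdeal (comap_gen_of_injective j hj)).symm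
                (algebraMap R _ r') :=
            (Ideal.ResidueField.map_algebraMap _ _ _ _ r').symm
          rw [map_mul, map_one, hvc, h3, ← map_mul, hr', mul_inv_cancel₀ hc0, map_one]
        exact IsUnit.of_mul_eq_one_right v hmul
  obtain ⟨r, hr⟩ := hcR
  refine ⟨r, ?_⟩
  funext P
  obtain ⟨Ω, _, V, j, v, hj, hjP, hv⟩ := hext P
  have hvc := hgenV Ω V j hj v hv
  have hvj : v = j r := by
    apply algebraMap_residueField_bot_injective V
    rw [hvc, ← hr]
    exact Ideal.ResidueField.map_algebraMap _ _ _ _ r
  have e1 : η.Nmap j (η.t R r) = η.Nmap j (η.Nmap g x) := by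
    rw [η.Nmap_t_apply, ← hvj, hv]
  have e2 := congrFun e1 (IsLocalRing.closedPoint V)
  rw [Nmap_apply_of_eq η j _ _ P hjP, Nmap_apply_of_eq η j _ _ P hjP] at e2
  exact (η.map _).injective e2

end Groth.Agent.Lib.Helper20

namespace Groth.Agent.Lib.Helper20

universe v

open EtaPt

/-- `t_B` is injective for a reduced ring `B` -/
theorem t_injective_of_isReduced (η : EtaPt.FieldEndo.{v}) (B : Type v) [CommRing B]
    [IsReduced B] : Function.Injective (η.t B) := by
  rw [injective_iff_map_eq_zero]
  intro z hz
  have hn : IsNilpotent z := by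
    rw [nilpotent_iff_mem_prime]
    intro J hJ
    have h1 := congrFun hz ⟨J, hJ⟩
    rw [t_apply] at h1
    exact Ideal.algebraMap_residueField_eq_zero.mp ((map_eq_zero _).mp h1)
  exact hn.eq_zero

end Groth.Agent.Lib.Helper20
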