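import Groth.Prelude.Def_PLie

set_option autoImplicit false

namespace Groth.Agent.Lib.Helper20

universe u v w

section

variable {R : Type u} [CommRing R]
variable {L₁ : Type v} [LieRing L₁] [LieAlgebra R L₁] {L₂ : Type w} [LieRing L₂] [LieAlgebra R L₂]

theorem bracketWord_map (f : L₁ →ₗ⁅R⁆ L₂) (a b : L₁) (l : List Bool) :
    f (PLie.bracketWord (PLie.pair a b) b l) = PLie.bracketWord (PLie.pair (f a) (f b)) (f b) l := by
  induction l with
  | nil => rfl
  | cons i l ih =>
    rw [PLie.bracketWord_cons, PLie.bracketWord_cons, LieHom.map_lie, ih]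
    congr 1
    cases i <;> rfl

theorem jacobson_map (p : ℕ) [CharP R p] (f : L₁ →ₗ⁅R⁆ L₂) (a b : L₁) :
    f (PLie.jacobson R p a b) = PLie.jacobson R p (f a) (f b) := by
  unfold PLie.jacobson
  rw [map_sum]
  refine Finset.sum_congr rfl (fun t _ => ?_)
  rw [map_smul, bracketWord_map]

theorem bracketWord_pair_zero (z : L₁) (l : List Bool) (hl : l ≠ []) :
    PLie.bracketWord (PLie.pair 0 z) z l = 0 := by
  induction l with
  | nil => exact absurd rfl hl
  | cons i l ih =>
    rw [PLie.bracketWord_cons]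
    by_cases h : l = []
    · subst h
      rw [PLie.bracketWord_nil]
      cases i
      · show ⁅(0 : L₁), z⁆ = 0
        exact zero_lie z
      · show ⁅z, z⁆ = 0
        exact lie_self z
    · rw [ih h, lie_zero]

theorem jacobson_zero_left (p : ℕ) [Fact p.Prime] [CharP R p] (z : L₁) :
    PLie.jacobson R p 0 z = 0 := by
  unfold PLie.jacobson
  refine Finset.sum_eq_zero (fun t _ => ?_)
  have hp : 2 ≤ p := (Fact.out : p.Prime).two_le
  rw [bracketWord_pair_zero, smul_zero]
  intro h
  have := congrArg List.length h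
  rw [List.length_ofFn, List.length_nil] at this
  omega

theorem ad_pow_map (f : L₁ →ₗ⁅R⁆ L₂) (x : L₁) (n : ℕ) (z : L₁) :
    f (((LieAlgebra.ad R L₁ x) ^ n) z) = ((LieAlgebra.ad R L₂ (f x)) ^ n) (f z) := by
  induction n generalizing z with
  | zero => simp
  | succ n ih =>
    rw [pow_succ', pow_succ', Module.End.mul_apply, Module.End.mul_apply, LieAlgebra.ad_apply,
      LieAlgebra.ad_apply, LieHom.map_lie, ih]

theorem pmap_ext {p : ℕ} [CharP R p] {ψ₁ ψ₂ : PLie.PMap R p L₁} (h : ∀ x, ψ₁ x = ψ₂ x) :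
    ψ₁ = ψ₂ := by
  cases ψ₁
  cases ψ₂
  congr
  funext x
  exact h x

end

end Groth.Agent.Lib.Helper20
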